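import Cfsg.Agent.PGroup.FormGroup

/-!
The plus and minus models among extraspecial 2-groups.
-/

set_option autoImplicit false

namespace Cfsg.Agent.FormGroup

open Cfsg

theorem plusTwo_iff {E : Type*} [Group E] [Finite E] (hE : IsExtraspecial 2 E) {n : ℕ}
    (hcard : Nat.card E = 2 ^ (2 * n + 1)) :
    PGroup.IsPlusTwo E ↔ ∃ A : Subgroup E, IsElementaryAbelian 2 A ∧ Nat.card ↥A = 2 ^ (n + 1) := by
  haveI : Fact (Nat.Prime 2) := ⟨Nat.prime_two⟩
  constructor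
  · rintro ⟨A, hA, hA'⟩
    refine ⟨A, hA, le_antisymm (PGroup.extraspecial_card_abelian_le hE hcard hA.1) ?_⟩
    rw [hcard, ← pow_succ', show 2 * n + 1 + 1 = (n + 1) * 2 by ring, pow_mul] at hA'
    exact le_of_pow_le_pow_left₀ two_ne_zero (Nat.zero_le _) hA'
  · rintro ⟨A, hA, hA'⟩
    refine ⟨A, hA, ?_⟩
    rw [hcard, hA', ← pow_succ', ← pow_mul]
    exact le_of_eq (by ring_nf)

theorem plus_model (n : ℕ) (hn : 1 ≤ n) : IsExtraspecial 2 (EB (plusMat n)) :=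
  haveI : Nonempty (Fin n ⊕ Fin n) := ⟨Sum.inl ⟨0, hn⟩⟩
  extraspecial (nondeg_plus n)

theorem minus_model (m : ℕ) : IsExtraspecial 2 (EB (minusMat m)) := extraspecial (nondeg_minus m)

theorem equiv_plus {E : Type*} [Group E] [Finite E] (hE : IsExtraspecial 2 E) {n : ℕ} (hn : 1 ≤ n)
    (hcard : Nat.card E = 2 ^ (2 * n + 1))
    (h : ∃ A : Subgroup E, IsElementaryAbelian 2 A ∧ Nat.card ↥A = 2 ^ (n + 1)) :
    Nonempty (E ≃* EB (plusMat n)) :=
  PGroup.iso_of_type _ E (EB (plusMat n)) hE (plus_model n hn) hcard (card_plus_eq n)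
    (iff_of_true ((plusTwo_iff hE hcard).2 h) ((plusTwo_iff (plus_model n hn) (card_plus_eq n)).2 (elemAb_plus n)))

theorem equiv_minus {E : Type*} [Group E] [Finite E] (hE : IsExtraspecial 2 E) {m : ℕ}
    (hcard : Nat.card E = 2 ^ (2 * (m + 1) + 1))
    (h : ¬ ∃ A : Subgroup E, IsElementaryAbelian 2 A ∧ Nat.card ↥A = 2 ^ (m + 1 + 1)) :
    Nonempty (E ≃* EB (minusMat m)) :=
  PGroup.iso_of_type _ E (EB (minusMat m)) hE (minus_model m) hcard (card_minus_eq m)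
    (iff_of_false (fun h' => h ((plusTwo_iff hE hcard).1 h')) (not_plusTwo_minus m))

end Cfsg.Agent.FormGroup
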