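import Cfsg.Agent.PGroup.InvolutionCount
import Cfsg.Agent.Classical.OrthForms
import Cfsg.Agent.S5395
import Cfsg.Prelude.Def_KGroupFacts

/-!
The extraspecial 2-group of a bilinear form over the field with two elements, and its outer automorphism group.
-/

set_option autoImplicit false

namespace Cfsg.Agent.FormGroup

open Cfsg Matrix

variable {ι : Type} [Fintype ι] [DecidableEq ι]

/-- Pairs of a vector and a scalar, multiplied by means of the bilinear form of a matrix. -/
structure EB (B : Matrix ι ι (ZMod 2)) where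
  /-- The vector. -/
  v : ι → ZMod 2
  /-- The scalar. -/
  a : ZMod 2

/-- The bilinear form. -/
def bil (B : Matrix ι ι (ZMod 2)) (v w : ι → ZMod 2) : ZMod 2 := v ⬝ᵥ B *ᵥ w

variable {B : Matrix ι ι (ZMod 2)}

theorem bil_add_left (u v w : ι → ZMod 2) : bil B (u + v) w = bil B u w + bil B v w := add_dotProduct _ _ _

theorem bil_add_right (u v w : ι → ZMod 2) : bil B u (v + w) = bil B u v + bil B u w := by
  rw [bil, mulVec_add, dotProduct_add]; rfl

theorem bil_zero_left (w : ι → ZMod 2) : bil B 0 w = 0 := zero_dotProduct _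

theorem bil_zero_right (w : ι → ZMod 2) : bil B w 0 = 0 := by rw [bil, mulVec_zero, dotProduct_zero]

theorem vec_add_self (v : ι → ZMod 2) : v + v = 0 := funext fun _ => CharTwo.add_self_eq_zero _

theorem ext_pair {x y : EB B} (h1 : x.v = y.v) (h2 : x.a = y.a) : x = y := by
  cases x; cases y; simp_all

instance formGroupInst : Group (EB B) where
  one := ⟨0, 0⟩
  mul x y := ⟨x.v + y.v, x.a + y.a + bil B x.v y.v⟩
  inv x := ⟨x.v, x.a + bil B x.v x.v⟩
  mul_assoc x y w := ext_pair (add_assoc _ _ _) (by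
    show x.a + y.a + bil B x.v y.v + w.a + bil B (x.v + y.v) w.v =
      x.a + (y.a + w.a + bil B y.v w.v) + bil B x.v (y.v + w.v)
    rw [bil_add_left, bil_add_right]; ring)
  one_mul x := ext_pair (zero_add _) (by show 0 + x.a + bil B 0 x.v = x.a; rw [bil_zero_left, zero_add, add_zero])
  mul_one x := ext_pair (add_zero _) (by show x.a + 0 + bil B x.v 0 = x.a; rw [bil_zero_right, add_zero, add_zero])
  inv_mul_cancel x := ext_pair (vec_add_self _) (by
    show x.a + bil B x.v x.v + x.a + bil B x.v x.v = 0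
    rw [add_right_comm x.a, add_assoc]
    simp [CharTwo.add_self_eq_zero])

theorem one_v : (1 : EB B).v = 0 := rfl

theorem one_a : (1 : EB B).a = 0 := rfl

theorem mul_v (x y : EB B) : (x * y).v = x.v + y.v := rfl

theorem mul_a (x y : EB B) : (x * y).a = x.a + y.a + bil B x.v y.v := rfl

theorem sq_eq (x : EB B) : x ^ 2 = ⟨0, bil B x.v x.v⟩ := by
  rw [pow_two]
  exact ext_pair (vec_add_self _) (by rw [mul_a, CharTwo.add_self_eq_zero, zero_add])

/-- The underlying pairs. -/
def pairEquiv (B : Matrix ι ι (ZMod 2)) : EB B ≃ (ι → ZMod 2) × ZMod 2 :=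
  ⟨fun x => (x.v, x.a), fun p => ⟨p.1, p.2⟩, fun _ => rfl, fun _ => rfl⟩

instance formGroupFinite : Finite (EB B) := Finite.of_equiv _ (pairEquiv B).symm

theorem card_EB : Nat.card (EB B) = 2 ^ (Fintype.card ι + 1) := by
  rw [Nat.card_congr (pairEquiv B), Nat.card_prod, Nat.card_fun, Nat.card_zmod, Nat.card_eq_fintype_card, pow_succ]

theorem isPGroup_EB : IsPGroup 2 (EB B) := IsPGroup.of_card card_EB

/-- No vector is orthogonal to all for the alternating part. -/
def Nondeg (B : Matrix ι ι (ZMod 2)) : Prop := ∀ v, (∀ w, bil B v w = bil B w v) → v = 0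

theorem mem_center_iff_v (h : Nondeg B) {x : EB B} : x ∈ Subgroup.center (EB B) ↔ x.v = 0 := by
  rw [Subgroup.mem_center_iff]
  constructor
  · intro hx
    refine h _ fun w => ?_
    have := congrArg EB.a (hx ⟨w, 0⟩)
    simp only [mul_a] at this
    rw [add_comm (0 : ZMod 2)] at this
    exact (add_left_cancel this).symm
  · intro hx g
    refine ext_pair (add_comm _ _) ?_
    rw [mul_a, mul_a, hx, bil_zero_left, bil_zero_right, add_comm g.a]

theorem card_center (h : Nondeg B) : Nat.card (Subgroup.center (EB B)) = 2 := by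
  rw [Nat.card_congr
    { toFun := fun x : Subgroup.center (EB B) => (x : EB B).a
      invFun := fun a => ⟨⟨0, a⟩, (mem_center_iff_v h).2 rfl⟩
      left_inv := fun x => Subtype.ext (ext_pair ((mem_center_iff_v h).1 x.2).symm rfl)
      right_inv := fun _ => rfl }, Nat.card_zmod]

theorem extraspecial (h : Nondeg B) [Nonempty ι] : IsExtraspecial 2 (EB B) := by
  haveI : Fact (Nat.Prime 2) := ⟨Nat.prime_two⟩
  refine PGroup.isExtraspecial_of_center isPGroup_EB (card_center h) ?_ ?_ fun x => ?_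
  · intro hc
    obtain ⟨i⟩ := ‹Nonempty ι›
    have := (mem_center_iff_v h (x := ⟨Pi.single i 1, 0⟩)).1
      (Subgroup.mem_center_iff.2 fun g => hc.is_comm.comm _ _)
    have e := congrFun this i
    simp at e
  · rw [commutator_eq_closure, Subgroup.closure_le]
    rintro _ ⟨x, y, rfl⟩
    refine (mem_center_iff_v h).2 ?_
    rw [commutatorElement_def]
    show x.v + y.v + x.v + y.v = 0
    funext i
    simp only [Pi.add_apply, Pi.zero_apply]
    linear_combination (CharTwo.add_self_eq_zero (x.v i + y.v i))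
  · exact (mem_center_iff_v h).2 (by rw [sq_eq])

/-- The squares. -/
theorem sq_eq_one_iff (x : EB B) : x ^ 2 = 1 ↔ bil B x.v x.v = 0 := by
  rw [sq_eq]
  exact ⟨fun e => congrArg EB.a e, fun e => ext_pair rfl e⟩

theorem invCount_EB : PGroup.invCount (EB B) = 2 * Nat.card {v : ι → ZMod 2 // bil B v v = 0} := by
  rw [PGroup.invCount]
  refine Eq.trans ?_ (congrArg (· * _) (Nat.card_zmod 2))
  rw [← Nat.card_prod]
  exact Nat.card_congr
    { toFun := fun x => (x.1.a, ⟨x.1.v, (sq_eq_one_iff _).1 x.2⟩)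
      invFun := fun p => ⟨⟨p.2.1, p.1⟩, (sq_eq_one_iff _).2 p.2.2⟩
      left_inv := fun _ => rfl
      right_inv := fun _ => rfl }

/-- A subspace on which the form vanishes gives an elementary abelian subgroup. -/
theorem elemAb_of_null (W : AddSubgroup (ι → ZMod 2)) (hW : ∀ v ∈ W, ∀ w ∈ W, bil B v w = 0) :
    ∃ A : Subgroup (EB B), IsElementaryAbelian 2 A ∧ Nat.card A = 2 * Nat.card W := by
  let A : Subgroup (EB B) :=
    { carrier := {x | x.v ∈ W}
      one_mem' := W.zero_mem
      mul_mem' := fun {x y} hx hy => W.add_mem hx hy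
      inv_mem' := fun {x} hx => hx }
  refine ⟨A, ⟨⟨⟨fun x y => Subtype.ext (ext_pair (add_comm _ _) ?_)⟩⟩, fun x hx => (sq_eq_one_iff x).2 (hW _ hx _ hx)⟩, ?_⟩
  · show (x : EB B).a + (y : EB B).a + bil B (x : EB B).v (y : EB B).v =
      (y : EB B).a + (x : EB B).a + bil B (y : EB B).v (x : EB B).v
    rw [hW _ x.2 _ y.2, hW _ y.2 _ x.2, add_comm (x : EB B).a]
  · refine Eq.trans ?_ (congrArg (· * _) (Nat.card_zmod 2))
    rw [← Nat.card_prod]
    exact Nat.card_congr
      { toFun := fun x => ((x : EB B).a, ⟨(x : EB B).v, x.2⟩)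
        invFun := fun p => ⟨⟨p.2.1, p.1⟩, p.2.2⟩
        left_inv := fun _ => rfl
        right_inv := fun _ => rfl }

/-! ### The two standard forms -/

/-- The vectors vanishing outside a set of coordinates. -/
def suppSub (s : Finset ι) : AddSubgroup (ι → ZMod 2) where
  carrier := {v | ∀ i, i ∉ s → v i = 0}
  zero_mem' := fun _ _ => rfl
  add_mem' := fun ha hb i hi => by rw [Pi.add_apply, ha i hi, hb i hi, add_zero]
  neg_mem' := fun ha i hi => by rw [Pi.neg_apply, ha i hi, neg_zero]

theorem card_suppSub (s : Finset ι) : Nat.card (suppSub s) = 2 ^ s.card := by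
  rw [Nat.card_congr
    { toFun := fun v : suppSub s => fun i : s => (v : ι → ZMod 2) i
      invFun := fun f => ⟨fun i => if h : i ∈ s then f ⟨i, h⟩ else 0, fun i hi => dif_neg hi⟩
      left_inv := fun v => Subtype.ext (funext fun i => by
        by_cases h : i ∈ s
        · exact dif_pos h
        · exact (dif_neg h).trans (v.2 i h).symm)
      right_inv := fun f => funext fun i => dif_pos i.2 },
    Nat.card_fun, Nat.card_zmod, Nat.card_eq_fintype_card, Fintype.card_coe]

/-- The hyperbolic matrix. -/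
def plusMat (n : ℕ) : Matrix (Fin n ⊕ Fin n) (Fin n ⊕ Fin n) (ZMod 2) := Matrix.fromBlocks 0 1 0 0

/-- The elliptic matrix. -/
def minusMat (m : ℕ) : Matrix ((Fin m ⊕ Fin m) ⊕ Fin 2) ((Fin m ⊕ Fin m) ⊕ Fin 2) (ZMod 2) :=
  Matrix.fromBlocks (plusMat m) 0 0 !![1, 1; 0, 1]

theorem bil_plus (n : ℕ) (v w : Fin n ⊕ Fin n → ZMod 2) :
    bil (plusMat n) v w = ∑ i, v (.inl i) * w (.inr i) := by
  simp [bil, plusMat, dotProduct, Matrix.fromBlocks_mulVec, Fintype.sum_sum_type]

theorem bil_minus (m : ℕ) (v w : (Fin m ⊕ Fin m) ⊕ Fin 2 → ZMod 2) :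
    bil (minusMat m) v w = (∑ i, v (.inl (.inl i)) * w (.inl (.inr i))) +
      (v (.inr 0) * w (.inr 0) + v (.inr 0) * w (.inr 1) + v (.inr 1) * w (.inr 1)) := by
  simp [bil, minusMat, plusMat, dotProduct, Matrix.fromBlocks_mulVec, Matrix.mulVec, Fintype.sum_sum_type,
    Fin.sum_univ_two, Matrix.one_apply]
  ring

theorem diag_plus (n : ℕ) (v : Fin n ⊕ Fin n → ZMod 2) : bil (plusMat n) v v = quadFormPlus n (ZMod 2) v :=
  bil_plus n v v

theorem diag_minus (m : ℕ) (v : (Fin m ⊕ Fin m) ⊕ Fin 2 → ZMod 2) :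
    bil (minusMat m) v v = quadFormMinus m (ZMod 2) 1 1 v := by
  rw [bil_minus, quadFormMinus]; ring

theorem nondeg_plus (n : ℕ) : Nondeg (plusMat n) := by
  intro v hv
  funext p
  rcases p with i | i
  · have := hv (Pi.single (.inr i) 1)
    simpa [bil_plus, Pi.single_apply] using this
  · have := hv (Pi.single (.inl i) 1)
    simpa [bil_plus, Pi.single_apply] using this.symm

theorem nondeg_minus (m : ℕ) : Nondeg (minusMat m) := by
  intro v hv
  funext p
  rcases p with (i | i) | k
  · have := hv (Pi.single (.inl (.inr i)) 1)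
    simpa [bil_minus, Pi.single_apply] using this
  · have := hv (Pi.single (.inl (.inl i)) 1)
    simpa [bil_minus, Pi.single_apply] using this.symm
  · have h0 := hv (Pi.single (.inr 0) 1)
    have h1 := hv (Pi.single (.inr 1) 1)
    simp [bil_minus, Pi.single_apply] at h0 h1
    fin_cases k
    · exact h1
    · exact h0

theorem elemAb_plus (n : ℕ) :
    ∃ A : Subgroup (EB (plusMat n)), IsElementaryAbelian 2 A ∧ Nat.card A = 2 ^ (n + 1) := by
  obtain ⟨A, hA, hc⟩ := elemAb_of_null (B := plusMat n) (suppSub (Finset.univ.map ⟨Sum.inl, Sum.inl_injective⟩))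
    fun v hv w hw => by
      rw [bil_plus]
      refine Finset.sum_eq_zero fun i _ => ?_
      rw [hw (.inr i) (by simp), mul_zero]
  refine ⟨A, hA, ?_⟩
  rw [hc, card_suppSub, Finset.card_map, Finset.card_univ, Fintype.card_fin, pow_succ']

theorem elemAb_minus (m : ℕ) :
    ∃ A : Subgroup (EB (minusMat m)), IsElementaryAbelian 2 A ∧ Nat.card A = 2 ^ (m + 1) := by
  obtain ⟨A, hA, hc⟩ := elemAb_of_null (B := minusMat m)
    (suppSub (Finset.univ.map ⟨fun i => Sum.inl (Sum.inl i), Sum.inl_injective.comp Sum.inl_injective⟩))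
    fun v hv w hw => by
      rw [bil_minus, hw (.inr 0) (by simp), hw (.inr 1) (by simp)]
      rw [Finset.sum_eq_zero fun i _ => by rw [hw (.inl (.inr i)) (by simp), mul_zero]]
      simp
  refine ⟨A, hA, ?_⟩
  rw [hc, card_suppSub, Finset.card_map, Finset.card_univ, Fintype.card_fin, pow_succ']

theorem card_minus_eq (m : ℕ) : Nat.card (EB (minusMat m)) = 2 ^ (2 * (m + 1) + 1) := by
  rw [card_EB, Fintype.card_sum, Fintype.card_sum, Fintype.card_fin, Fintype.card_fin]
  ring_nf

theorem card_plus_eq (n : ℕ) : Nat.card (EB (plusMat n)) = 2 ^ (2 * n + 1) := by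
  rw [card_EB, Fintype.card_sum, Fintype.card_fin]
  ring_nf

theorem not_plusTwo_minus (m : ℕ) : ¬ PGroup.IsPlusTwo (EB (minusMat m)) := by
  intro h
  obtain ⟨k, -, hk, hp, -⟩ := PGroup.invCount_eq _ (EB (minusMat m)) (extraspecial (nondeg_minus m)) rfl
  rw [card_minus_eq] at hk
  have hkm := Nat.pow_right_injective le_rfl hk
  obtain rfl : k = m + 1 := by omega
  have h1 := hp h
  rw [invCount_EB] at h1
  have hA : (Classical.binQF (1 : ZMod 2) 1).Anisotropic := by
    intro z hz
    rw [Classical.binQF_apply] at hz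
    have h2 : ∀ a b : ZMod 2, a ^ 2 + 1 * a * b + 1 * b ^ 2 = 0 → a = 0 ∧ b = 0 := by decide
    obtain ⟨a, b⟩ := h2 _ _ hz
    funext i
    fin_cases i
    · exact a
    · exact b
  have h3 := Classical.card_zeros_hypExt_minus m hA
  rw [Nat.card_zmod, ← Nat.card_congr ((Classical.minusEquiv (F := ZMod 2) m).toEquiv.subtypeEquiv
    (p := fun v => bil (minusMat m) v v = 0)
    (fun v => by rw [diag_minus, ← Classical.minusQF_apply, ← Classical.minusEquiv_spec]; rfl))] at h3
  have e1 : 2 ^ (2 * (m + 1)) = 2 * 2 ^ (2 * m + 1) := by rw [← pow_succ']; ring_nf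
  have e2 : 2 ^ (m + 1) = 2 * 2 ^ m := pow_succ' 2 m
  rw [e1, e2] at h1
  rw [e2] at h3
  have := Nat.two_pow_pos m
  omega

/-! ### Outer automorphisms -/

/-- The map induced on vectors. -/
def vecMap (φ : MulAut (EB B)) (v : ι → ZMod 2) : ι → ZMod 2 := (φ ⟨v, 0⟩).v

theorem vecMap_spec (h : Nondeg B) (φ : MulAut (EB B)) (x : EB B) : (φ x).v = vecMap φ x.v := by
  have hx : x = ⟨x.v, 0⟩ * ⟨0, x.a⟩ := ext_pair (by rw [mul_v, add_zero]) (by rw [mul_a, bil_zero_right, add_zero, zero_add])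
  have hc : φ ⟨0, x.a⟩ ∈ Subgroup.center (EB B) :=
    Subgroup.mem_center_iff.2 fun g => by
      obtain ⟨g', rfl⟩ := φ.surjective g
      rw [← map_mul, ← map_mul, Subgroup.mem_center_iff.1 ((mem_center_iff_v h).2 rfl) g']
  conv_lhs => rw [hx, map_mul, mul_v, (mem_center_iff_v h).1 hc, add_zero]
  rfl

theorem vecMap_add (h : Nondeg B) (φ : MulAut (EB B)) (v w : ι → ZMod 2) :
    vecMap φ (v + w) = vecMap φ v + vecMap φ w := by
  have := vecMap_spec h φ (⟨v, 0⟩ * ⟨w, 0⟩)
  rw [map_mul, mul_v] at this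
  exact this.symm

/-- The induced linear map. -/
def linMap (h : Nondeg B) (φ : MulAut (EB B)) : (ι → ZMod 2) →ₗ[ZMod 2] (ι → ZMod 2) :=
  (AddMonoidHom.mk' (vecMap φ) (vecMap_add h φ)).toZModLinearMap 2

theorem linMap_mul (h : Nondeg B) (φ χ : MulAut (EB B)) : linMap h (φ * χ) = linMap h φ ∘ₗ linMap h χ :=
  LinearMap.ext fun v => vecMap_spec h φ (χ ⟨v, 0⟩)

theorem linMap_one (h : Nondeg B) : linMap h 1 = LinearMap.id := LinearMap.ext fun _ => rfl

/-- The induced matrix. -/
noncomputable def toGLHom (h : Nondeg B) : MulAut (EB B) →* GL ι (ZMod 2) :=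
  MonoidHom.toHomUnits
    { toFun := fun φ => LinearMap.toMatrix' (linMap h φ)
      map_one' := by rw [linMap_one, LinearMap.toMatrix'_id]
      map_mul' := fun φ χ => by rw [linMap_mul, LinearMap.toMatrix'_comp] }

theorem toGLHom_mulVec (h : Nondeg B) (φ : MulAut (EB B)) (x : EB B) :
    (toGLHom h φ : Matrix ι ι (ZMod 2)) *ᵥ x.v = (φ x).v := by
  rw [vecMap_spec h]
  show LinearMap.toMatrix' (linMap h φ) *ᵥ x.v = _
  rw [LinearMap.toMatrix'_mulVec]
  rfl

theorem diag_preserved (h : Nondeg B) [Nonempty ι] (φ : MulAut (EB B)) (x : EB B) :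
    bil B (φ x).v (φ x).v = bil B x.v x.v := by
  have key : ∀ y : EB B, bil B y.v y.v = 0 ↔ y * y = 1 := fun y => by rw [← sq_eq_one_iff, pow_two]
  have h2 : ∀ a b : ZMod 2, (a = 0 ↔ b = 0) → a = b := by decide
  refine h2 _ _ ?_
  rw [key, key, ← map_mul]
  exact ⟨fun e => φ.injective (e.trans (map_one φ).symm), fun e => by rw [e, map_one]⟩

/-- The action on the quadratic space. -/
noncomputable def isoHom (h : Nondeg B) [Nonempty ι] (q : (ι → ZMod 2) → ZMod 2) (hq : ∀ v, bil B v v = q v) :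
    MulAut (EB B) →* isometryGroup (ZMod 2) q :=
  (toGLHom h).codRestrict _ fun φ v _ => by
    show q ((toGLHom h φ : Matrix ι ι (ZMod 2)) *ᵥ v) = q v
    rw [toGLHom_mulVec h φ ⟨v, 0⟩, ← hq, ← hq]
    exact diag_preserved h φ ⟨v, 0⟩

theorem exists_half_alternating (D : Matrix ι ι (ZMod 2)) (hd : ∀ i, D i i = 0) (hs : Dᵀ = D) :
    ∃ U : Matrix ι ι (ZMod 2), U + Uᵀ = D := by
  let e := Fintype.equivFin ι
  refine ⟨fun i j => if e i < e j then D i j else 0, ?_⟩
  ext i j
  have hji : D j i = D i j := congrFun (congrFun hs i) j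
  show (if e i < e j then D i j else 0) + (if e j < e i then D j i else 0) = D i j
  rcases lt_trichotomy (e i) (e j) with r | r | r
  · rw [if_pos r, if_neg (not_lt_of_gt r), add_zero]
  · rw [e.injective r, if_neg (lt_irrefl _), add_zero, hd]
  · rw [if_neg (not_lt_of_gt r), if_pos r, zero_add, hji]

theorem isoHom_surjective (h : Nondeg B) [Nonempty ι] (q : (ι → ZMod 2) → ZMod 2) (hq : ∀ v, bil B v v = q v) :
    Function.Surjective (isoHom h q hq) := by
  rintro ⟨g, hg⟩
  set M : Matrix ι ι (ZMod 2) := (g : Matrix ι ι (ZMod 2))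
  set D := Mᵀ * B * M - B with hD
  have hDb : ∀ v w, v ⬝ᵥ D *ᵥ w = bil B (M *ᵥ v) (M *ᵥ w) - bil B v w := by
    intro v w
    rw [hD, sub_mulVec, dotProduct_sub, ← mulVec_mulVec, ← mulVec_mulVec, dotProduct_mulVec v Mᵀ, vecMul_transpose]
    rfl
  have hDd : ∀ v, v ⬝ᵥ D *ᵥ v = 0 := by
    intro v
    rw [hDb, hq, hq]
    exact sub_eq_zero.2 (hg v v)
  have hdiag : ∀ i, D i i = 0 := fun i => by simpa using hDd (Pi.single i 1)
  have hsym : Dᵀ = D := by
    ext i j
    have := hDd (Pi.single i 1 + Pi.single j 1)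
    simp only [mulVec_add, dotProduct_add, add_dotProduct, mulVec_single_one, single_one_dotProduct, col_apply,
      hdiag, zero_add, add_zero] at this
    rw [transpose_apply]
    exact (CharTwo.add_eq_zero.mp this)
  obtain ⟨U, hU⟩ := exists_half_alternating D hdiag hsym
  have hUb : ∀ v w, bil U v w + bil U w v = v ⬝ᵥ D *ᵥ w := by
    intro v w
    rw [← hU, add_mulVec, dotProduct_add, bil, bil]
    congr 1
    rw [mulVec_transpose, dotProduct_comm v, ← dotProduct_mulVec]
  have hf : ∀ x y : EB B, bil B (M *ᵥ x.v) (M *ᵥ y.v) + (bil U x.v x.v + bil U y.v y.v) =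
      bil B x.v y.v + bil U (x.v + y.v) (x.v + y.v) := by
    intro x y
    rw [bil_add_left, bil_add_right, bil_add_right]
    have := hUb x.v y.v
    rw [hDb, CharTwo.sub_eq_add] at this
    have h2 : ∀ a b c d e f : ZMod 2, c + d = a + b → a + (e + f) = b + (e + c + (d + f)) := by decide
    exact h2 _ _ _ _ _ _ this
  let φ : EB B →* EB B :=
    MonoidHom.mk' (fun x => ⟨M *ᵥ x.v, x.a + bil U x.v x.v⟩) fun x y => ext_pair (mulVec_add _ _ _) (by
      show x.a + y.a + bil B x.v y.v + bil U (x.v + y.v) (x.v + y.v) =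
        x.a + bil U x.v x.v + (y.a + bil U y.v y.v) + bil B (M *ᵥ x.v) (M *ᵥ y.v)
      linear_combination (hf x y).symm)
  have hinj : Function.Injective φ := by
    refine (injective_iff_map_eq_one φ).2 fun x hx => ?_
    have h1 : M *ᵥ x.v = 0 := congrArg EB.v hx
    have hv : x.v = 0 := by
      have := congrArg (((g⁻¹ : GL ι (ZMod 2)) : Matrix ι ι (ZMod 2)) *ᵥ ·) h1
      simpa [M, mulVec_mulVec, ← Units.val_mul] using this
    have h2 : x.a + bil U x.v x.v = 0 := congrArg EB.a hx
    rw [hv, bil_zero_left, add_zero] at h2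
    exact ext_pair hv h2
  refine ⟨MulEquiv.ofBijective φ (Finite.injective_iff_bijective.1 hinj), Subtype.ext (Units.ext ?_)⟩
  refine Matrix.toLin'.injective (LinearMap.ext fun v => ?_)
  rw [Matrix.toLin'_apply, Matrix.toLin'_apply]
  exact toGLHom_mulVec h _ ⟨v, 0⟩

theorem isoHom_ker (h : Nondeg B) [Nonempty ι] (q : (ι → ZMod 2) → ZMod 2) (hq : ∀ v, bil B v v = q v) :
    (isoHom h q hq).ker = Inn (EB B) := by
  ext φ
  constructor
  · intro hφ
    have h1 : ∀ x : EB B, φ x * x⁻¹ ∈ Subgroup.center (EB B) := by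
      intro x
      refine (mem_center_iff_v h).2 ?_
      have e : (toGLHom h φ : GL ι (ZMod 2)) = 1 := congrArg Subtype.val (MonoidHom.mem_ker.1 hφ)
      have := toGLHom_mulVec h φ x
      rw [e, Units.val_one, one_mulVec] at this
      show (φ x).v + x.v = 0
      rw [← this, vec_add_self]
    obtain ⟨g, hg⟩ := S5395.result (extraspecial h) φ h1
    exact ⟨g, MulEquiv.ext fun x => (hg x).symm⟩
  · rintro ⟨g, rfl⟩
    refine MonoidHom.mem_ker.2 (Subtype.ext (Units.ext ?_))
    refine Matrix.toLin'.injective (LinearMap.ext fun v => ?_)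
    rw [Matrix.toLin'_apply, Matrix.toLin'_apply]
    show (toGLHom h (MulAut.conj g) : Matrix ι ι (ZMod 2)) *ᵥ v = (1 : Matrix ι ι (ZMod 2)) *ᵥ v
    rw [toGLHom_mulVec h _ ⟨v, 0⟩, one_mulVec]
    show g.v + v + g.v = v
    rw [add_comm g.v, add_assoc, vec_add_self, add_zero]

/-- The outer automorphism group of any group isomorphic to the group of the form. -/
theorem out_equiv (h : Nondeg B) [Nonempty ι] (q : (ι → ZMod 2) → ZMod 2) (hq : ∀ v, bil B v v = q v)
    {E : Type*} [Group E] (e : E ≃* EB B) : Nonempty (Out E ≃* isometryGroup (ZMod 2) q) := by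
  let f : MulAut E →* isometryGroup (ZMod 2) q := (isoHom h q hq).comp (MulAut.congr e).toMonoidHom
  have hs : Function.Surjective f := (isoHom_surjective h q hq).comp (MulAut.congr e).surjective
  have hk : f.ker = Inn E := by
    ext φ
    show MulAut.congr e φ ∈ (isoHom h q hq).ker ↔ _
    rw [isoHom_ker h q hq]
    constructor
    · rintro ⟨g, hg⟩
      refine ⟨e.symm g, MulEquiv.ext fun x => e.injective ?_⟩
      have := congrArg (fun χ : MulAut (EB B) => χ (e x)) hg
      simpa [MulAut.congr] using this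
    · rintro ⟨g, rfl⟩
      exact ⟨e g, MulEquiv.ext fun x => by simp [MulAut.congr]⟩
  exact ⟨(QuotientGroup.quotientMulEquivOfEq hk.symm).trans (QuotientGroup.quotientKerEquivOfSurjective f hs)⟩

end Cfsg.Agent.FormGroup
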