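import Cfsg.Agent.OddLocal.UniqueRank
import Cfsg.Agent.Known.NormalRankTwo
import Cfsg.Agent.Invol.FourGroup
import Cfsg.Agent.Modules.ElemAb
import Cfsg.Agent.Modules.Fixed
import Cfsg.Agent.PGroup.ClassTwo
import Cfsg.Agent.PGroup.Basic
import Cfsg.Agent.S0130

/-!
For odd `p`, a finite `p`-group with an elementary abelian subgroup of order `p^4` has a normal one.
-/

set_option autoImplicit false

namespace Cfsg.Agent.PGroup.RankFour

open Subgroup
open scoped commutatorElement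

universe u

variable {G : Type u} [Group G] [Finite G] {p : ℕ} [Fact p.Prime]

/-- The kernel bound: `K` centralizing `F`, with all `[k, a]` in `F`. -/
theorem exists_comm_hom {K F : Subgroup G} (hFc : IsMulCommutative F) {a : G}
    (hK : K ≤ centralizer (F : Set G)) (hKa : ∀ k ∈ K, k * a * k⁻¹ * a⁻¹ ∈ F) :
    ∃ φ : K →* F, ∀ k : K, (φ k : G) = k * a * (k : G)⁻¹ * a⁻¹ := by
  refine ⟨MonoidHom.mk' (fun k => ⟨_, hKa k k.2⟩) fun k₁ k₂ => Subtype.ext ?_, fun k => rfl⟩
  show (k₁ : G) * k₂ * a * ((k₁ : G) * k₂)⁻¹ * a⁻¹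
    = ((k₁ : G) * a * (k₁ : G)⁻¹ * a⁻¹) * ((k₂ : G) * a * (k₂ : G)⁻¹ * a⁻¹)
  set f₁ := (k₁ : G) * a * (k₁ : G)⁻¹ * a⁻¹ with hf₁
  set f₂ := (k₂ : G) * a * (k₂ : G)⁻¹ * a⁻¹ with hf₂
  have h2 : (k₁ : G) * f₂ = f₂ * k₁ :=
    (mem_centralizer_iff.1 (hK k₁.2) f₂ (hKa k₂ k₂.2)).symm
  have h3 : f₂ * f₁ = f₁ * f₂ := congrArg Subtype.val
    (hFc.is_comm.comm (⟨f₂, hKa k₂ k₂.2⟩ : F) ⟨f₁, hKa k₁ k₁.2⟩)
  calc (k₁ : G) * k₂ * a * ((k₁ : G) * k₂)⁻¹ * a⁻¹ = ((k₁ : G) * f₂) * a * (k₁ : G)⁻¹ * a⁻¹ := by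
        rw [hf₂]; group
    _ = f₂ * f₁ := by rw [h2, hf₁]; group
    _ = f₁ * f₂ := h3

theorem card_le_of_comm {K F : Subgroup G} (hFc : IsMulCommutative F) {a : G}
    (hK : K ≤ centralizer (F : Set G)) (hKa : ∀ k ∈ K, k * a * k⁻¹ * a⁻¹ ∈ F) :
    Nat.card K ≤ Nat.card F * Nat.card ↥(K ⊓ centralizer ({a} : Set G)) := by
  obtain ⟨φ, hφ⟩ := exists_comm_hom hFc hK hKa
  have hker : φ.ker.map K.subtype ≤ K ⊓ centralizer ({a} : Set G) := by
    rintro _ ⟨k, hk, rfl⟩
    refine ⟨k.2, mem_centralizer_singleton_iff.2 ?_⟩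
    have h := hφ k
    rw [MonoidHom.mem_ker.1 hk] at h
    have h2 : (k : G) * a * (k : G)⁻¹ * a⁻¹ = 1 := h.symm
    rw [mul_inv_eq_one, mul_inv_eq_iff_eq_mul] at h2
    exact h2
  rw [← card_mul_index φ.ker, index_ker, mul_comm]
  refine Nat.mul_le_mul (Nat.le_of_dvd Nat.card_pos φ.range.card_subgroup_dvd_card) ?_
  rw [← card_map_of_injective (f := K.subtype) K.subtype_injective]
  exact card_le_of_le hker

theorem sup_zpowers_normal {N : Subgroup G} [N.Normal] {b : G}
    (hb : ∀ g : G, g * b * g⁻¹ * b⁻¹ ∈ N) : (N ⊔ zpowers b).Normal := by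
  rw [← normalizer_eq_top_iff, eq_top_iff]
  intro g _
  rw [Signalizer.map_conj_eq_self_iff.symm, Subgroup.map_sup, MonoidHom.map_zpowers]
  have hN : N.map (MulAut.conj g).toMonoidHom = N :=
    Signalizer.map_conj_eq_self_iff.2 (by rw [normalizer_eq_top]; trivial)
  rw [hN]
  refine eq_of_le_of_card_ge (sup_le le_sup_left (zpowers_le.2 ?_)) ?_
  · show g * b * g⁻¹ ∈ N ⊔ zpowers b
    rw [show g * b * g⁻¹ = g * b * g⁻¹ * b⁻¹ * b by group]
    exact mul_mem_sup (hb g) (mem_zpowers b)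
  · rw [← card_map_of_injective (f := (MulAut.conj g).toMonoidHom) (MulAut.conj g).injective]
    show Nat.card ↥((N ⊔ zpowers b).map (MulAut.conj g).toMonoidHom) ≤ _
    rw [Subgroup.map_sup, MonoidHom.map_zpowers, hN]

theorem elemAb_zpowers {b : G} (hb : b ^ p = 1) : Cfsg.IsElementaryAbelian p (zpowers b) := by
  refine ⟨inferInstance, fun y hy => ?_⟩
  obtain ⟨k, rfl⟩ := hy
  show (b ^ k) ^ p = 1
  rw [← zpow_natCast, ← zpow_mul, mul_comm, zpow_mul, zpow_natCast, hb, one_zpow]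

theorem mul_le_card_sup (hG : IsPGroup p G) {F : Subgroup G} {b : G} (hb : b ∉ F) :
    Nat.card F * p ≤ Nat.card ↥(F ⊔ zpowers b) :=
  Signalizer.mul_prime_le_card_of_lt (hG.to_subgroup _)
    (lt_of_le_not_ge le_sup_left fun h => hb (h (mem_sup_right (mem_zpowers b))))

/-- For odd `p`, a `p`-group with an elementary abelian subgroup of order `p^4` has a normal one. -/
theorem exists_normal_elemAb_four (hp2 : p ≠ 2) (n : ℕ) :
    ∀ {G : Type u} [Group G] [Finite G], Nat.card G = n → IsPGroup p G →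
      ∀ E : Subgroup G, Cfsg.IsElementaryAbelian p E → Nat.card E = p ^ 4 →
      ∃ A : Subgroup G, A.Normal ∧ Cfsg.IsElementaryAbelian p A ∧ Nat.card A = p ^ 4 := by
  induction n using Nat.strong_induction_on with
  | _ n ih =>
  intro G _ _ hn hG E hEe hE4
  by_cases hEn : E.Normal
  · exact ⟨E, hEn, hEe, hE4⟩
  have hp := (Fact.out : p.Prime)
  have finish : ∀ A : Subgroup G, A.Normal → Cfsg.IsElementaryAbelian p A → p ^ 4 ≤ Nat.card A →
      ∃ B : Subgroup G, B.Normal ∧ Cfsg.IsElementaryAbelian p B ∧ Nat.card B = p ^ 4 := by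
    intro A hAn hA h4
    haveI := hAn
    obtain ⟨B, hBn, -, hBA, hB⟩ := PGroup.exists_normal_card_eq hG (k := 4) (bot_le : ⊥ ≤ A)
      (by rw [card_bot]; exact Nat.one_le_pow _ _ hp.pos) h4
    exact ⟨B, hBn, Signalizer.elemAb_mono hA hBA, hB⟩
  by_contra hno
  have hnc : ¬ IsCyclic G := by
    intro hc
    haveI := hc
    exact hEn inferInstance
  obtain ⟨U, hUn, hU, hUc, hUe⟩ := Known.exists_normal_elemAb_sq hp2 hG hnc
  obtain ⟨A, hUA, hA⟩ := Finite.exists_le_maximal (a := U)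
    (p := fun K : Subgroup G => K.Normal ∧ IsMulCommutative K ∧ ∀ a ∈ K, a ^ p = 1) ⟨hUn, hUc, hUe⟩
  obtain ⟨hAn, hAc, hAe⟩ := hA.prop
  haveI := hAn
  have hAel : Cfsg.IsElementaryAbelian p A := ⟨hAc, hAe⟩
  have hom : ∀ x ∈ centralizer (A : Set G), x ^ p = 1 → x ∈ A := fun x hx hxp =>
    Cfsg.Agent.S0130.result hG 1 (by rwa [pow_one]) A hAc (fun a ha => by rw [pow_one]; exact hAe a ha)
      (fun B hB hBc hBe hAB => le_antisymm
        (hA.le_of_ge ⟨hB, hBc, fun b hb => by simpa using hBe b hb⟩ hAB) hAB)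
      x hx (by rwa [pow_one])
  have hAlt : Nat.card A < p ^ 4 := by
    by_contra h
    exact hno (finish A hAn hAel (not_lt.1 h))
  have hDA : ∀ E' : Subgroup G, Cfsg.IsElementaryAbelian p E' →
      E' ⊓ centralizer (A : Set G) ≤ E' ⊓ A := fun E' hE' x hx =>
    ⟨hx.1, hom x hx.2 (hE'.2 x hx.1)⟩
  have hnotle : ∀ E' : Subgroup G, Cfsg.IsElementaryAbelian p E' → p ^ 4 ≤ Nat.card E' → ¬ A ≤ E' := by
    intro E' hE' h4 hle
    haveI := hE'.1
    have h1 : E' ≤ E' ⊓ A := (le_inf le_rfl ((le_centralizer E').trans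
      (centralizer_le (SetLike.coe_subset_coe.2 hle)))).trans (hDA E' hE')
    exact absurd (h4.trans (card_le_of_le (h1.trans inf_le_right))) (not_le.2 hAlt)
  -- `|A| = p^3`
  have hA3 : Nat.card A = p ^ 3 := by
    obtain ⟨k, hk⟩ := (hG.to_subgroup A).exists_card_eq
    have h2 : p ^ 2 ≤ p ^ k := hk ▸ hU ▸ card_le_of_le hUA
    have hk4 : k < 4 := (Nat.pow_lt_pow_iff_right hp.one_lt).1 (hk ▸ hAlt)
    have hk2 : 2 ≤ k := (Nat.pow_le_pow_iff_right hp.one_lt).1 h2
    rcases Nat.lt_or_ge k 3 with h | h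
    · exfalso
      have hk' : k = 2 := by omega
      rw [hk'] at hk
      have h1 := OddLocal.card_inf_centralizer_ge (p := p) (P := (⊤ : Subgroup G)) (U := A) (E := E)
        (hG.to_subgroup ⊤) le_top (by rw [normalizer_eq_top]) hAel hk le_top
      have h3 := h1.trans (Nat.mul_le_mul_left p (card_le_of_le ((hDA E hEe).trans inf_le_right)))
      rw [hE4, hk, ← pow_succ'] at h3
      exact absurd h3 (not_le.2 (Nat.pow_lt_pow_right hp.one_lt (by norm_num)))
    · rw [hk, show k = 3 by omega]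
  obtain ⟨F, hFn, -, hFA, hF2⟩ := PGroup.exists_normal_card_eq hG (k := 2) (bot_le : ⊥ ≤ A)
    (by rw [card_bot]; exact Nat.one_le_pow _ _ hp.pos)
    (hA3 ▸ Nat.pow_le_pow_right hp.pos (by norm_num))
  haveI := hFn
  have hFe : Cfsg.IsElementaryAbelian p F := Signalizer.elemAb_mono hAel hFA
  have hFlt : F < A := lt_of_le_of_ne hFA fun h => by
    rw [h, hA3] at hF2
    exact absurd hF2 (Nat.pow_lt_pow_right hp.one_lt (by norm_num : 2 < 3)).ne'
  obtain ⟨a, ha, haF, haC⟩ := Invol.exists_central_mod hG A F hFlt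
  have hAgen : F ⊔ zpowers a = A := eq_of_le_of_card_ge (sup_le hFA (zpowers_le.2 ha)) (by
    have := mul_le_card_sup hG haF
    rw [hA3, pow_succ, ← hF2]
    exact this)
  have hcA : ∀ x : G, x ∈ centralizer (F : Set G) → x ∈ centralizer ({a} : Set G) →
      x ∈ centralizer (A : Set G) := by
    intro x hxF hxa
    rw [← hAgen, Signalizer.centralizer_sup, Signalizer.centralizer_zpowers]
    exact ⟨hxF, hxa⟩
  -- every `E'` meets `A` in `F`
  have hmeet : ∀ E' : Subgroup G, Cfsg.IsElementaryAbelian p E' → Nat.card E' = p ^ 4 →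
      E' ⊓ A = F := by
    intro E' hE' h4
    set K := E' ⊓ centralizer (F : Set G) with hK
    set D := E' ⊓ A with hD
    have h1 : p ^ 4 ≤ p * Nat.card K := h4 ▸ OddLocal.card_inf_centralizer_ge (p := p)
      (P := (⊤ : Subgroup G)) (hG.to_subgroup ⊤) le_top (by rw [normalizer_eq_top]) hFe hF2 le_top
    have hKD : K ⊓ centralizer ({a} : Set G) ≤ D := fun x hx =>
      hDA E' hE' ⟨hx.1.1, hcA x hx.1.2 hx.2⟩
    have h2 : Nat.card K ≤ p ^ 2 * Nat.card D := by
      refine (card_le_of_comm hFe.1 inf_le_right fun k _ => haC k).trans ?_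
      rw [hF2]
      exact Nat.mul_le_mul_left _ (card_le_of_le hKD)
    obtain ⟨d, hd⟩ := (hG.to_subgroup D).exists_card_eq
    have hd3 : d < 3 := by
      by_contra h
      refine hnotle E' hE' h4.ge (le_of_eq_of_le ?_ (inf_le_left : D ≤ E'))
      exact (eq_of_le_of_card_ge (inf_le_right : D ≤ A)
        (hA3 ▸ hd ▸ Nat.pow_le_pow_right hp.pos (not_lt.1 h))).symm
    rcases Nat.lt_or_ge d 2 with hd2 | hd2
    · exfalso
      have hd1 : Nat.card D ≤ p := by
        rw [hd]; exact (Nat.pow_le_pow_right hp.pos (by omega : d ≤ 1)).trans (pow_one p).le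
      obtain ⟨φ, hφ⟩ := exists_comm_hom hFe.1 (inf_le_right : K ≤ centralizer (F : Set G))
        (a := a) fun k _ => haC k
      have hker : Nat.card φ.ker ≤ p := by
        rw [← card_map_of_injective (f := K.subtype) K.subtype_injective]
        refine le_trans (card_le_of_le ?_) hd1
        rintro _ ⟨k, hk, rfl⟩
        refine hKD ⟨k.2, mem_centralizer_singleton_iff.2 ?_⟩
        have h := hφ k
        rw [MonoidHom.mem_ker.1 hk] at h
        exact mul_inv_eq_iff_eq_mul.1 (mul_inv_eq_one.1 h.symm)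
      have hsurj : Function.Surjective φ := by
        rw [← MonoidHom.range_eq_top]
        refine eq_top_of_card_eq _ (le_antisymm (Nat.le_of_dvd Nat.card_pos
          φ.range.card_subgroup_dvd_card) ?_)
        rw [hF2]
        have h3 : Nat.card K = Nat.card φ.ker * Nat.card φ.range := by
          rw [← index_ker, card_mul_index]
        refine Nat.le_of_mul_le_mul_left ?_ (Nat.mul_pos hp.pos hp.pos)
        calc p * p * p ^ 2 = p ^ 4 := by ring
          _ ≤ p * Nat.card K := h1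
          _ ≤ p * (p * Nat.card φ.range) := by
            rw [h3]; exact Nat.mul_le_mul_left _ (Nat.mul_le_mul_right _ hker)
          _ = p * p * Nat.card φ.range := by ring
      obtain ⟨g, hg, hgK⟩ : ∃ g ∈ E', g ∉ K := by
        by_contra hcon
        have hle : E' ≤ K := fun g hg => by_contra fun h => hcon ⟨g, hg, h⟩
        have h5 : p ^ 4 ≤ p ^ 3 := h4 ▸ ((card_le_of_le hle).trans (h2.trans
          ((Nat.mul_le_mul_left _ hd1).trans (pow_succ p 2).ge)))
        exact absurd h5 (not_le.2 (Nat.pow_lt_pow_right hp.one_lt (by norm_num)))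
      refine hgK ⟨hg, mem_centralizer_iff.2 fun f hf => ?_⟩
      obtain ⟨h, hh⟩ := hsurj ⟨f, hf⟩
      have hf' : (h : G) * a * (h : G)⁻¹ = f * a := by
        have := (hφ h).symm.trans (congrArg Subtype.val hh)
        exact mul_inv_eq_iff_eq_mul.1 this
      set f0 := g * a * g⁻¹ * a⁻¹ with hf0
      have hg' : g * a * g⁻¹ = f0 * a := by rw [hf0]; group
      have hgh : g * h = h * g :=
        congrArg Subtype.val (hE'.1.is_comm.comm (⟨g, hg⟩ : E') ⟨h, h.2.1⟩)
      have hh0 : (h : G) * f0 * (h : G)⁻¹ = f0 :=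
        mul_inv_eq_iff_eq_mul.2 (mem_centralizer_iff.1 h.2.2 f0 (haC g)).symm
      have e1 : g * h * a * (g * h)⁻¹ = (g * f * g⁻¹) * (f0 * a) := by
        rw [← hg', show g * h * a * (g * h)⁻¹ = g * ((h : G) * a * (h : G)⁻¹) * g⁻¹ by group, hf']
        group
      have e2 : (h : G) * g * a * ((h : G) * g)⁻¹ = (f0 * f) * a := by
        rw [show (h : G) * g * a * ((h : G) * g)⁻¹
          = (h : G) * (g * a * g⁻¹) * (h : G)⁻¹ by group, hg',
          show (h : G) * (f0 * a) * (h : G)⁻¹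
          = ((h : G) * f0 * (h : G)⁻¹) * ((h : G) * a * (h : G)⁻¹) by group, hh0, hf']
        group
      rw [hgh, e2, ← mul_assoc (g * f * g⁻¹)] at e1
      have e3 := mul_right_cancel e1
      have hff : f0 * f = f * f0 :=
        congrArg Subtype.val (hFe.1.is_comm.comm (⟨f0, haC g⟩ : F) ⟨f, hf⟩)
      rw [hff] at e3
      exact (mul_inv_eq_iff_eq_mul.1 (mul_right_cancel e3).symm).symm
    · have hDc : Nat.card D = p ^ 2 := by rw [hd, show d = 2 by omega]
      by_contra hne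
      have hlt : F < F ⊔ D := lt_of_le_not_ge le_sup_left fun h =>
        hne (eq_of_le_of_card_ge (le_sup_right.trans h) (hF2.trans hDc.symm).le)
      have hsup : F ⊔ D = A := eq_of_le_of_card_ge (sup_le hFA inf_le_right) (by
        have := Signalizer.mul_prime_le_card_of_lt (p := p) (hG.to_subgroup (F ⊔ D)) hlt
        rw [hA3, pow_succ, ← hF2]; exact this)
      have hKle : K ≤ D := fun x hx => hDA E' hE' ⟨hx.1, by
        rw [← hsup, Signalizer.centralizer_sup]
        haveI := hE'.1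
        exact ⟨hx.2, centralizer_le (SetLike.coe_subset_coe.2 inf_le_left) (le_centralizer E' hx.1)⟩⟩
      have h5 := h1.trans (Nat.mul_le_mul_left p (card_le_of_le hKle))
      rw [hDc, ← pow_succ'] at h5
      exact absurd h5 (not_le.2 (Nat.pow_lt_pow_right hp.one_lt (by norm_num)))
  have hcent : ∀ E' : Subgroup G, Cfsg.IsElementaryAbelian p E' → Nat.card E' = p ^ 4 →
      E' ≤ centralizer (F : Set G) := fun E' hE' h4 => by
    haveI := hE'.1
    exact (le_centralizer E').trans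
      (centralizer_le (SetLike.coe_subset_coe.2 ((hmeet E' hE' h4).ge.trans inf_le_left)))
  have hCFA : ∀ c ∈ centralizer (F : Set G), ∀ d ∈ centralizer (F : Set G),
      ⁅c, d⁆ ∈ centralizer (A : Set G) := by
    intro c hc d hd
    refine hcA _ (by rw [commutatorElement_def]
                     exact mul_mem (mul_mem (mul_mem hc hd) (inv_mem hc)) (inv_mem hd)) ?_
    obtain ⟨φ, hφ⟩ := exists_comm_hom hFe.1 (le_refl (centralizer (F : Set G))) (a := a)
      fun k _ => haC k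
    have h : φ ⁅(⟨c, hc⟩ : centralizer (F : Set G)), ⟨d, hd⟩⁆ = 1 := by
      haveI := hFe.1
      rw [map_commutatorElement, commutatorElement_eq_one_iff_mul_comm]
      exact hFe.1.is_comm.comm _ _
    have h2 := (hφ _).symm.trans (congrArg Subtype.val h)
    exact mem_centralizer_singleton_iff.2 (mul_inv_eq_iff_eq_mul.1 (mul_inv_eq_one.1 h2))
  -- a normal maximal subgroup and the induction hypothesis
  have hEtop : E ≠ ⊤ := fun h => hEn (h ▸ inferInstance)
  obtain ⟨M, hM, hEM⟩ := IsCoatomic.eq_top_or_exists_le_coatom E |>.resolve_left hEtop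
  haveI : Group.IsNilpotent G := hG.isNilpotent
  haveI hMn : M.Normal :=
    Subgroup.NormalizerCondition.normal_of_coatom M Group.normalizerCondition_of_isNilpotent hM
  have hcard : Nat.card M < n := hn ▸ lt_of_le_of_ne
    (Nat.le_of_dvd Nat.card_pos M.card_subgroup_dvd_card) fun h => hM.1 (eq_top_of_card_eq M h)
  obtain ⟨E0, hE0n, hE0e, hE04⟩ := ih _ hcard rfl (hG.to_subgroup M) (E.subgroupOf M)
    ⟨OddLocal.isMulComm_subgroupOf hEe.1 M, fun x hx => Subtype.ext (hEe.2 _ hx)⟩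
    (by rw [Nat.card_congr (subgroupOfEquivOfLe hEM).toEquiv, hE4])
  set E1 := E0.map M.subtype with hE1
  have hE1M : E1 ≤ M := map_subtype_le _
  have hE1n : M ≤ normalizer (E1 : Set G) := OddLocal.le_normalizer_map_subtype E0
  have hE1e : Cfsg.IsElementaryAbelian p E1 := by
    haveI := hE0e.1
    refine ⟨Subgroup.map_isMulCommutative E0 _, ?_⟩
    rintro _ ⟨x, hx, rfl⟩
    rw [← map_pow, hE0e.2 x hx, map_one]
  have hE14 : Nat.card E1 = p ^ 4 := by
    rw [hE1, card_map_of_injective M.subtype_injective, hE04]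
  have hE1nn : ¬ E1.Normal := fun h => hno ⟨E1, h, hE1e, hE14⟩
  have hconj : ∀ g : G, Cfsg.IsElementaryAbelian p (OddLocal.conjBy g E1) ∧
      Nat.card (OddLocal.conjBy g E1) = p ^ 4 ∧ OddLocal.conjBy g E1 ≤ M ∧
      M ≤ normalizer (OddLocal.conjBy g E1 : Set G) := by
    intro g
    have hgM : OddLocal.conjBy g M = M :=
      OddLocal.conjBy_eq_iff_mem_normalizer.2 (by rw [normalizer_eq_top]; trivial)
    haveI := hE1e.1
    refine ⟨⟨Subgroup.map_isMulCommutative E1 _, ?_⟩, by rw [OddLocal.card_conjBy, hE14],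
      (OddLocal.conjBy_mono hE1M).trans hgM.le, ?_⟩
    · rintro _ ⟨x, hx, rfl⟩
      rw [← map_pow, hE1e.2 x hx, map_one]
    · rw [← OddLocal.conjBy_normalizer]
      exact hgM.ge.trans (OddLocal.conjBy_mono hE1n)
  set S : Set G := ⋃ g : G, (OddLocal.conjBy g E1 : Set G) with hS
  set L := Subgroup.closure S with hL
  have hgL : ∀ g : G, OddLocal.conjBy g E1 ≤ L := fun g x hx =>
    Subgroup.subset_closure (Set.mem_iUnion.2 ⟨g, hx⟩)
  haveI hLn : L.Normal := by
    rw [← normalizer_eq_top_iff, eq_top_iff]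
    intro g _
    refine OddLocal.conjBy_eq_iff_mem_normalizer.1 (eq_of_le_of_card_ge ?_ (by rw [OddLocal.card_conjBy]))
    rw [OddLocal.conjBy, MonoidHom.map_closure, Subgroup.closure_le]
    rintro _ ⟨x, hx, rfl⟩
    obtain ⟨h, hxh⟩ := Set.mem_iUnion.1 hx
    exact hgL (g * h) (by rw [OddLocal.conjBy_mul]; exact mem_map_of_mem _ hxh)
  have hSF : ∀ s ∈ S, ∀ t ∈ S, ⁅s, t⁆ ∈ F := by
    intro s hs t ht
    obtain ⟨g, hg⟩ := Set.mem_iUnion.1 hs
    obtain ⟨h, hh⟩ := Set.mem_iUnion.1 ht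
    obtain ⟨hge, hg4, hgM, hgn⟩ := hconj g
    obtain ⟨hhe, hh4, hhM, hhn⟩ := hconj h
    have h1 : ⁅s, t⁆ ∈ OddLocal.conjBy g E1 := by
      rw [commutatorElement_def, show s * t * s⁻¹ * t⁻¹ = s * (t * s⁻¹ * t⁻¹) by group]
      exact mul_mem hg ((mem_normalizer_iff.1 (hgn (hhM hh)) s⁻¹).1 (inv_mem hg))
    rw [← hmeet _ hge hg4]
    exact ⟨h1, hom _ (hCFA s (hcent _ hge hg4 hg) t (hcent _ hhe hh4 hh)) (hge.2 _ h1)⟩
  have hLF : L ≤ centralizer (F : Set G) := (Subgroup.closure_le _).2 fun s hs => by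
    obtain ⟨g, hg⟩ := Set.mem_iUnion.1 hs
    exact hcent _ (hconj g).1 (hconj g).2.1 hg
  have hLd : ∀ x ∈ L, ∀ y ∈ L, ⁅x, y⁆ ∈ F := by
    intro x hx y hy
    rw [← QuotientGroup.eq_one_iff (N := F)]
    show QuotientGroup.mk' F ⁅x, y⁆ = 1
    rw [map_commutatorElement, commutatorElement_eq_one_iff_mul_comm]
    have h1 : ∀ s ∈ S, L.map (QuotientGroup.mk' F) ≤ centralizer {QuotientGroup.mk' F s} := by
      intro s hs
      rw [hL, MonoidHom.map_closure, Subgroup.closure_le]
      rintro _ ⟨t, ht, rfl⟩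
      refine mem_centralizer_singleton_iff.2 (commutatorElement_eq_one_iff_mul_comm.1 ?_)
      rw [← map_commutatorElement]
      exact (QuotientGroup.eq_one_iff _).2 (hSF t ht s hs)
    have h2 : L.map (QuotientGroup.mk' F) ≤ centralizer {QuotientGroup.mk' F x} := by
      intro z hz
      have : L.map (QuotientGroup.mk' F) ≤ centralizer {z} := by
        rw [hL, MonoidHom.map_closure, Subgroup.closure_le]
        rintro _ ⟨s, hs, rfl⟩
        exact mem_centralizer_singleton_iff.2 (mem_centralizer_singleton_iff.1 (h1 s hs hz)).symm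
      exact mem_centralizer_singleton_iff.2
        (mem_centralizer_singleton_iff.1 (this (mem_map_of_mem _ hx))).symm
    exact (mem_centralizer_singleton_iff.1 (h2 (mem_map_of_mem _ hy))).symm
  have hFL : F ≤ L := (hmeet E1 hE1e hE14).ge.trans (inf_le_left.trans
    ((OddLocal.conjBy_one E1).ge.trans (hgL 1)))
  have hexp : ∀ x ∈ L, x ^ p = 1 := by
    intro x hx
    have hclass : commutator L ≤ center L := by
      rw [_root_.commutator_def, Subgroup.commutator_le]
      intro c _ d _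
      refine mem_center_iff.2 fun e => Subtype.ext ?_
      exact (mem_centralizer_iff.1 (hLF e.2) _ (hLd c c.2 d d.2)).symm
    have h := pow_eq_one_of_mem_closure hclass (hp.odd_of_ne_two hp2)
      (S := ((↑) : L → G) ⁻¹' S) (x := (⟨x, hx⟩ : L)) (fun s hs => by
        obtain ⟨g, hg⟩ := Set.mem_iUnion.1 (hs : (s : G) ∈ S)
        exact Subtype.ext ((hconj g).1.2 _ hg)) (by
        rw [Subgroup.closure_closure_coe_preimage]; trivial)
    exact congrArg Subtype.val h
  -- the final step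
  have step : ∀ y ∈ L, y ∉ F → (∀ g : G, g * y * g⁻¹ * y⁻¹ ∈ F) →
      p ^ 4 ≤ Nat.card ↥(L ⊓ centralizer ({y} : Set G)) → False := by
    intro y hy hyF hyc h4
    haveI hFy : (F ⊔ zpowers y).Normal := sup_zpowers_normal hyc
    set Fy := F ⊔ zpowers y with hFydef
    have hyFc : zpowers y ≤ centralizer (F : Set G) := zpowers_le.2 (hLF hy)
    have hFye : Cfsg.IsElementaryAbelian p Fy :=
      Modules.elemAb_sup hFe (elemAb_zpowers (hexp y hy)) hyFc
    have hFyL : Fy ≤ L := sup_le hFL (zpowers_le.2 hy)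
    have h3 : p ^ 3 ≤ Nat.card Fy := by
      rw [pow_succ, ← hF2]; exact mul_le_card_sup hG hyF
    by_cases hbig : p ^ 4 ≤ Nat.card Fy
    · exact hno (finish Fy hFy hFye hbig)
    haveI : (centralizer (Fy : Set G)).Normal := Subgroup.normal_centralizer
    set C := L ⊓ centralizer (Fy : Set G) with hC
    have hLC : L ⊓ centralizer ({y} : Set G) ≤ C := fun x hx => ⟨hx.1, by
      rw [hFydef, Signalizer.centralizer_sup, Signalizer.centralizer_zpowers]
      exact ⟨hLF hx.1, hx.2⟩⟩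
    haveI := hFye.1
    have hlt : Fy < C := lt_of_le_of_ne (le_inf hFyL (le_centralizer Fy))
      fun h => hbig (h ▸ h4.trans (card_le_of_le hLC))
    obtain ⟨b, hb, hbF, hbc⟩ := Invol.exists_central_mod hG C Fy hlt
    refine hno (finish (Fy ⊔ zpowers b) (sup_zpowers_normal hbc)
      (Modules.elemAb_sup hFye (elemAb_zpowers (hexp b hb.1)) (zpowers_le.2 hb.2)) ?_)
    calc p ^ 4 = p ^ 3 * p := pow_succ p 3
      _ ≤ Nat.card Fy * p := Nat.mul_le_mul_right _ h3
      _ ≤ _ := mul_le_card_sup hG hbF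
  by_cases h6 : p ^ 6 ≤ Nat.card L
  · have hlt : F < L := lt_of_le_of_ne hFL fun h => by
      rw [← h, hF2] at h6
      exact absurd h6 (not_le.2 (Nat.pow_lt_pow_right hp.one_lt (by norm_num)))
    obtain ⟨y, hy, hyF, hyc⟩ := Invol.exists_central_mod hG L F hlt
    refine step y hy hyF hyc (Nat.le_of_mul_le_mul_left ?_ (pow_pos hp.pos 2))
    rw [← pow_add]
    exact h6.trans (hF2 ▸ card_le_of_comm hFe.1 hLF fun k _ => hyc k)
  · obtain ⟨g, hg⟩ : ∃ g : G, OddLocal.conjBy g E1 ≠ E1 := by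
      by_contra hall
      refine hE1nn (normalizer_eq_top_iff.1 (eq_top_iff.2 fun g _ => ?_))
      exact OddLocal.conjBy_eq_iff_mem_normalizer.1 (by_contra fun h => hall ⟨g, h⟩)
    obtain ⟨hge, hg4, hgM, hgn⟩ := hconj g
    set E2 := OddLocal.conjBy g E1 with hE2
    have hE1L : E1 ≤ L := (OddLocal.conjBy_one E1).ge.trans (hgL 1)
    have hsupL : E1 ⊔ E2 ≤ L := sup_le hE1L (hgL g)
    have h5 : p ^ 5 ≤ Nat.card ↥(E1 ⊔ E2) := by
      rw [pow_succ, ← hE14]
      exact Signalizer.mul_prime_le_card_of_lt (hG.to_subgroup _) (lt_of_le_not_ge le_sup_left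
        fun h => hg (eq_of_le_of_card_ge (le_sup_right.trans h) (by rw [hE14, hg4])))
    obtain ⟨l, hl⟩ := (hG.to_subgroup L).exists_card_eq
    have hl5 : l ≤ 5 := by
      by_contra h
      exact h6 (hl ▸ Nat.pow_le_pow_right hp.pos (by omega))
    have hL5 : Nat.card L ≤ p ^ 5 := hl ▸ Nat.pow_le_pow_right hp.pos hl5
    have hLeq : E1 ⊔ E2 = L := eq_of_le_of_card_ge hsupL (hL5.trans h5)
    have hJ : p ^ 3 ≤ Nat.card ↥(E1 ⊓ E2) := by
      refine Nat.le_of_mul_le_mul_left ?_ (pow_pos hp.pos 5)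
      have := Modules.card_sup_mul_card_inf (B := E1) (V := E2) (hE1M.trans hgn)
      rw [hE14, hg4, hLeq] at this
      rw [← pow_add, show p ^ (5 + 3) = p ^ 4 * p ^ 4 by ring, ← this]
      exact Nat.mul_le_mul_right _ hL5
    haveI : (centralizer (L : Set G)).Normal := Subgroup.normal_centralizer
    set Z := L ⊓ centralizer (L : Set G) with hZ
    have hJZ : E1 ⊓ E2 ≤ Z := by
      refine le_inf (inf_le_left.trans hE1L) ?_
      rw [← hLeq, Signalizer.centralizer_sup]
      haveI := hE1e.1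
      haveI := hge.1
      exact le_inf (inf_le_left.trans (le_centralizer E1)) (inf_le_right.trans (le_centralizer E2))
    have hlt : F < Z := lt_of_le_of_ne (le_inf hFL (le_centralizer_iff.1 hLF)) fun h => by
      have := hJ.trans (card_le_of_le (hJZ.trans h.ge))
      rw [hF2] at this
      exact absurd this (not_le.2 (Nat.pow_lt_pow_right hp.one_lt (by norm_num)))
    obtain ⟨y, hy, hyF, hyc⟩ := Invol.exists_central_mod hG Z F hlt
    refine step y hy.1 hyF hyc ?_
    rw [inf_eq_left.2 (fun x hx => mem_centralizer_singleton_iff.2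
      (mem_centralizer_iff.1 hy.2 x hx) : L ≤ centralizer ({y} : Set G))]
    exact (Nat.pow_le_pow_right hp.pos (by norm_num)).trans (h5.trans (card_le_of_le hsupL))

end Cfsg.Agent.PGroup.RankFour
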