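import Mathlib

/-!
Gauss sums of quadratic functions on finite groups and, as a consequence, common zeros of
quadratic functions with values in elementary abelian `2`-groups.
-/

set_option linter.style.haveILetI false

namespace Cfsg.Agent.PGroup

variable {V : Type*} [Group V]

/-- A function to a commutative monoid whose second difference is multiplicative. -/
def IsQuad {M : Type*} [CommMonoid M] (f : V → M) : Prop :=
  f 1 = 1 ∧ (∀ x, f x * f x = 1) ∧
    ∀ x y z, f (x * y * z) * f (x * y) * f z = f (x * z) * f x * f z * (f (y * z) * f y * f z)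

theorem IsQuad.comp {M N : Type*} [CommMonoid M] [CommMonoid N] {f : V → M} (hf : IsQuad f)
    (φ : M →* N) : IsQuad (φ ∘ f) := by
  refine ⟨by simp [hf.1], fun x => ?_, fun x y z => ?_⟩
  · show φ (f x) * φ (f x) = 1
    rw [← map_mul, hf.2.1, map_one]
  · simp only [Function.comp_apply, ← map_mul, hf.2.2]

theorem IsQuad.comp_hom {M : Type*} [CommMonoid M] {U : Type*} [Group U] {f : V → M}
    (hf : IsQuad f) (ψ : U →* V) : IsQuad (f ∘ ψ) :=
  ⟨by simp [hf.1], fun x => hf.2.1 _, fun x y z => by simp [hf.2.2]⟩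

theorem IsQuad.prod {M : Type*} [CommMonoid M] {ι : Type*} (s : Finset ι) {f : ι → V → M}
    (hf : ∀ i ∈ s, IsQuad (f i)) : IsQuad (fun x => ∏ i ∈ s, f i x) := by
  refine ⟨Finset.prod_eq_one fun i hi => (hf i hi).1, fun x => ?_, fun x y z => ?_⟩
  · rw [← Finset.prod_mul_distrib]
    exact Finset.prod_eq_one fun i hi => (hf i hi).2.1 x
  · simp only [← Finset.prod_mul_distrib]
    exact Finset.prod_congr rfl fun i hi => (hf i hi).2.2 x y z

/-- The square of a Gauss sum. -/
theorem gauss_sum_sq [Fintype V] {f : V → ℤ} (hf : IsQuad f) :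
    ∃ R : Subgroup V, (∀ z, z ∈ R ↔ ∀ x, f (x * z) = f x * f z) ∧
      (((∀ z ∈ R, f z = 1) ∧
          (∑ x, f x) ^ 2 = (Nat.card V : ℤ) * (Nat.card R : ℤ)) ∨
        (∑ x, f x) = 0) := by
  classical
  obtain ⟨h0, h1, hB⟩ := hf
  let b : V → V → ℤ := fun x z => f (x * z) * f x * f z
  have hb : ∀ x y z, b (x * y) z = b x z * b y z := fun x y z => hB x y z
  have hrad : ∀ x z, b x z = 1 ↔ f (x * z) = f x * f z := fun x z =>
    ⟨fun h => by
      calc f (x * z) = f (x * z) * (f x * f x) * (f z * f z) := by simp [h1]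
        _ = b x z * (f x * f z) := by ring
        _ = f x * f z := by rw [h, one_mul],
    fun h => by
      show f (x * z) * f x * f z = 1
      calc f (x * z) * f x * f z = (f x * f x) * (f z * f z) := by rw [h]; ring
        _ = 1 := by simp [h1]⟩
  let R₀ : Submonoid V :=
    { carrier := {z | ∀ x, f (x * z) = f x * f z}
      one_mem' := fun x => by simp [h0]
      mul_mem' := fun {z w} hz hw x => by
        rw [← mul_assoc, hw, hz, hw z, mul_assoc] }
  have hinv : ∀ z ∈ R₀, z⁻¹ ∈ R₀ := fun z hz => by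
    obtain ⟨n, hn⟩ := (isOfFinOrder_of_finite z).mem_zpowers_iff_mem_range_orderOf.mp
      (inv_mem (Subgroup.mem_zpowers z)) |> Finset.mem_image.mp
    exact hn.2 ▸ pow_mem hz n
  let R : Subgroup V := { R₀ with inv_mem' := fun {z} hz => hinv z hz }
  refine ⟨R, fun z => Iff.rfl, ?_⟩
  have hS : (∑ x, f x) ^ 2 = ∑ z, f z * ∑ x, b x z := by
    calc (∑ x, f x) ^ 2 = ∑ x, ∑ y, f x * f y := by rw [sq, Finset.sum_mul_sum]
      _ = ∑ x, ∑ z, f x * f (x * z) := Finset.sum_congr rfl fun x _ =>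
        (Fintype.sum_equiv (Equiv.mulLeft x) _ _ fun z => rfl).symm
      _ = ∑ z, ∑ x, f x * f (x * z) := Finset.sum_comm
      _ = ∑ z, f z * ∑ x, b x z := Finset.sum_congr rfl fun z _ => by
        rw [Finset.mul_sum]
        exact Finset.sum_congr rfl fun x _ => by
          calc f x * f (x * z) = f x * f (x * z) * (f z * f z) := by rw [h1, mul_one]
            _ = f z * b x z := by ring
  have hsum : ∀ z, (∑ x, b x z) = if z ∈ R then (Nat.card V : ℤ) else 0 := by
    intro z
    split_ifs with hz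
    · rw [Finset.sum_congr rfl fun x _ => (hrad x z).mpr (hz x)]
      simp [Nat.card_eq_fintype_card]
    · obtain ⟨a, ha⟩ : ∃ a, b a z ≠ 1 := by
        by_contra h
        push Not at h
        exact hz fun x => (hrad x z).mp (h x)
      have h : b a z * ∑ x, b x z = ∑ x, b x z := by
        rw [Finset.mul_sum]
        exact Fintype.sum_equiv (Equiv.mulLeft a) _ _ fun x => (hb a x z).symm
      by_contra hne
      exact ha (mul_right_cancel₀ hne (h.trans (one_mul _).symm))
  simp only [hsum, mul_ite, mul_zero] at hS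
  rw [← Finset.sum_filter, ← Finset.sum_mul, mul_comm] at hS
  by_cases htriv : ∀ z ∈ R, f z = 1
  · refine Or.inl ⟨htriv, ?_⟩
    rw [hS]
    congr 1
    rw [Finset.sum_congr rfl fun z hz => htriv z (Finset.mem_filter.mp hz).2, Finset.sum_const,
      nsmul_one, Nat.card_eq_fintype_card, Fintype.card_subtype]
  · refine Or.inr ?_
    push Not at htriv
    obtain ⟨a, ha, ha1⟩ := htriv
    have h : f a * ∑ z ∈ Finset.univ.filter (· ∈ R), f z =
        ∑ z ∈ Finset.univ.filter (· ∈ R), f z := by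
      rw [Finset.mul_sum]
      refine Finset.sum_equiv (Equiv.mulLeft a) (fun z => ?_) (fun z hz => ?_)
      · simp only [Finset.mem_filter, Finset.mem_univ, true_and, Equiv.coe_mulLeft]
        exact (R.mul_mem_cancel_left ha).symm
      · exact ((Finset.mem_filter.mp hz).2 a).symm
    have h0' : ∑ z ∈ Finset.univ.filter (· ∈ R), f z = 0 := by
      by_contra hne
      exact ha1 (mul_right_cancel₀ hne (h.trans (one_mul _).symm))
    rw [h0', mul_zero] at hS
    exact pow_eq_zero_iff (two_ne_zero) |>.mp hS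

theorem two_pow_dvd_gauss_sum [Fintype V] {e : ℕ} (hV : IsPGroup 2 V)
    (hlt : 2 ^ (2 * e) < Nat.card V) {f : V → ℤ} (hf : IsQuad f) :
    (2 : ℤ) ^ (e + 1) ∣ ∑ x, f x := by
  haveI : Fact (Nat.Prime 2) := ⟨Nat.prime_two⟩
  obtain ⟨R, -, ⟨-, h⟩ | h⟩ := gauss_sum_sq hf
  · obtain ⟨m, hm⟩ := IsPGroup.iff_card.mp hV
    obtain ⟨k, hk⟩ := IsPGroup.iff_card.mp (hV.to_subgroup R)
    have hm' : 2 * e < m := (Nat.pow_lt_pow_iff_right (by norm_num)).mp (hm ▸ hlt)
    have h' : (∑ x, f x).natAbs ^ 2 = 2 ^ (m + k) := by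
      rw [← Int.natAbs_pow, h, hm, hk, pow_add, Int.natAbs_mul, Int.natAbs_natCast, Int.natAbs_natCast]
    obtain ⟨a, -, ha⟩ := (Nat.dvd_prime_pow Nat.prime_two).mp (h' ▸ dvd_pow_self _ two_ne_zero :
      (∑ x, f x).natAbs ∣ 2 ^ (m + k))
    rw [ha, ← pow_mul] at h'
    have := Nat.pow_right_injective le_rfl h'
    have hd : 2 ^ (e + 1) ∣ (∑ x, f x).natAbs := ha ▸ pow_dvd_pow 2 (by omega)
    exact_mod_cast Int.natCast_dvd.mpr hd
  · rw [h]; exact dvd_zero _

/-- An elementary abelian `2`-group of order `2 ^ e` embeds in `{±1} ^ e`. -/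
theorem exists_sign_embedding {W : Type*} [CommGroup W] [Finite W] {e : ℕ}
    (hexp : ∀ w : W, w ^ 2 = 1) (hW : Nat.card W = 2 ^ e) :
    ∃ φ : W →* (Fin e → ℤˣ), Function.Injective φ := by
  classical
  letI : Module (ZMod 2) (Additive W) := AddCommGroup.zmodModule fun w => hexp w.toMul
  have hr : Module.finrank (ZMod 2) (Additive W) = e := by
    have h : Nat.card (Additive W) = 2 ^ e :=
      (Nat.card_congr Additive.toMul).trans hW
    rw [Module.natCard_eq_pow_finrank (K := ZMod 2), Nat.card_zmod] at h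
    exact Nat.pow_right_injective le_rfl h
  let b := Module.finBasisOfFinrankEq (ZMod 2) (Additive W) hr
  have hsgn : ∀ a c : ZMod 2, (if a + c = 0 then (1 : ℤˣ) else -1) =
      (if a = 0 then 1 else -1) * (if c = 0 then 1 else -1) := by decide
  refine ⟨MonoidHom.mk' (fun w i => if b.equivFun (Additive.ofMul w) i = 0 then 1 else -1)
    (fun v w => funext fun i => ?_), fun v w h => ?_⟩
  · rw [ofMul_mul, map_add]
    exact hsgn _ _
  · have : ∀ a c : ZMod 2, (if a = 0 then (1 : ℤˣ) else -1) = (if c = 0 then 1 else -1) → a = c := by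
      decide
    exact Additive.ofMul.injective (b.equivFun.injective (funext fun i => this _ _ (congrFun h i)))

/-- Chevalley–Warning for quadratic maps into elementary abelian `2`-groups. -/
theorem exists_quad_zero [Finite V] {W : Type*} [CommGroup W] [Finite W] (hV : IsPGroup 2 V)
    (hexp : ∀ w : W, w ^ 2 = 1) {q : V → W} (hq : IsQuad q)
    (hlt : Nat.card W ^ 2 < Nat.card V) : ∃ x ≠ 1, q x = 1 := by
  classical
  haveI : Fintype V := Fintype.ofFinite V
  haveI : Fact (Nat.Prime 2) := ⟨Nat.prime_two⟩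
  have hWp : IsPGroup 2 W := fun w => ⟨1, by simpa using hexp w⟩
  obtain ⟨e, he⟩ := IsPGroup.iff_card.mp hWp
  rw [he, ← pow_mul, mul_comm] at hlt
  obtain ⟨φ, hφ⟩ := exists_sign_embedding hexp he
  let F : Fin e → V → ℤ := fun i =>
    (Units.coeHom ℤ) ∘ ((Pi.evalMonoidHom (fun _ : Fin e => ℤˣ) i).comp φ ∘ q)
  have hF : ∀ i, IsQuad (F i) := fun i => (hq.comp _).comp _
  have hind : ∀ x : V, (∏ i, (1 + F i x)) = if q x = 1 then (2 : ℤ) ^ e else 0 := by
    intro x
    split_ifs with hx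
    · simp [F, hx]
    · obtain ⟨i, hi⟩ : ∃ i, φ (q x) i ≠ 1 := by
        by_contra h
        push Not at h
        exact hx (hφ ((funext h).trans (map_one φ).symm))
      refine Finset.prod_eq_zero (Finset.mem_univ i) ?_
      show (1 : ℤ) + (φ (q x) i : ℤˣ) = 0
      rw [(Int.units_eq_one_or (φ (q x) i)).resolve_left hi]
      simp
  have hd : (2 : ℤ) ^ (e + 1) ∣ ∑ x, ∏ i, (1 + F i x) := by
    rw [Finset.sum_congr rfl fun x _ => Finset.prod_one_add Finset.univ, Finset.sum_comm]
    exact Finset.dvd_sum fun T _ => two_pow_dvd_gauss_sum hV hlt (IsQuad.prod T fun i _ => hF i)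
  rw [Finset.sum_congr rfl fun x _ => hind x, ← Finset.sum_filter, Finset.sum_const, nsmul_eq_mul,
    mul_comm _ ((2 : ℤ) ^ e), pow_succ] at hd
  have h2 : 2 ∣ (Finset.univ.filter fun x : V => q x = 1).card := by
    exact_mod_cast (mul_dvd_mul_iff_left (pow_ne_zero e (by norm_num : (2 : ℤ) ≠ 0))).mp hd
  have hpos : 0 < (Finset.univ.filter fun x : V => q x = 1).card :=
    Finset.card_pos.mpr ⟨1, by simp [hq.1]⟩
  have hlt1 : 1 < (Finset.univ.filter fun x : V => q x = 1).card := by omega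
  obtain ⟨x, hx, hx1⟩ := Finset.exists_mem_ne hlt1 1
  exact ⟨x, hx1, (Finset.mem_filter.mp hx).2⟩

/-- A subgroup of an abelian group of exponent two has a complement. -/
theorem exists_complement_of_sq_eq_one [Finite V] (hexp : ∀ v : V, v ^ 2 = 1) (N : Subgroup V) :
    ∃ U : Subgroup V, U ⊓ N = ⊥ ∧ Nat.card U * Nat.card N = Nat.card V := by
  classical
  obtain ⟨U, hU, hmax⟩ := Set.Finite.exists_maximal (s := {U : Subgroup V | U ⊓ N = ⊥})
    (Set.toFinite _) ⟨⊥, by simp⟩
  have hcomm : ∀ a b : V, a * b = b * a := by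
    intro a b
    have h : ∀ v : V, v⁻¹ = v := fun v => inv_eq_of_mul_eq_one_right (by rw [← sq, hexp])
    calc a * b = (a * b)⁻¹ := (h _).symm
      _ = b * a := by rw [mul_inv_rev, h, h]
  haveI : N.Normal := ⟨fun n hn g => by rwa [hcomm g n, mul_inv_cancel_right]⟩
  have htop : ∀ v : V, ∃ u ∈ U, ∃ n ∈ N, u * n = v := by
    intro v
    by_cases hv : v ∈ U
    · exact ⟨v, hv, 1, one_mem _, mul_one v⟩
    have hmem : ∀ w ∈ U ⊔ Subgroup.zpowers v, w ∈ U ∨ ∃ u ∈ U, w = u * v := by
      intro w hw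
      haveI : (Subgroup.zpowers v).Normal := ⟨fun n hn g => by rwa [hcomm g n, mul_inv_cancel_right]⟩
      obtain ⟨u, hu, z, hz, rfl⟩ := Subgroup.mem_sup_of_normal_right.mp hw
      obtain ⟨i, rfl⟩ := Subgroup.mem_zpowers_iff.mp hz
      rcases Int.even_or_odd' i with ⟨j, rfl | rfl⟩
      · left; rw [zpow_mul, zpow_ofNat, hexp, one_zpow, mul_one]; exact hu
      · right; exact ⟨u, hu, by rw [zpow_add_one, zpow_mul, zpow_ofNat, hexp, one_zpow, one_mul]⟩
    by_contra hno
    push Not at hno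
    have hW : (U ⊔ Subgroup.zpowers v) ⊓ N = ⊥ := by
      refine (eq_bot_iff).mpr fun w hw => ?_
      rcases hmem w hw.1 with h | ⟨u, hu, rfl⟩
      · exact hU.le ⟨h, hw.2⟩
      · exact absurd (inv_mul_cancel_left u v) (hno u⁻¹ (inv_mem hu) _ hw.2)
    exact hv (hmax hW le_sup_left (Subgroup.mem_sup_right (Subgroup.mem_zpowers v)))
  refine ⟨U, hU, ?_⟩
  have hcomp : Subgroup.IsComplement' U N := by
    refine Subgroup.isComplement'_of_disjoint_and_mul_eq_univ (disjoint_iff.mpr hU) ?_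
    refine Set.eq_univ_of_forall fun v => ?_
    obtain ⟨u, hu, n, hn, rfl⟩ := htop v
    exact ⟨u, hu, n, hn, rfl⟩
  exact hcomp.card_mul_card

end Cfsg.Agent.PGroup
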