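import Cfsg.Agent.PGroup.ClassTwo
import Cfsg.Agent.PGroup.QuadraticSum

/-!
The squaring map of a `2`-group modulo a central elementary abelian subgroup.
-/

open scoped commutatorElement

namespace Cfsg.Agent.PGroup

variable {G : Type*} [Group G]

theorem sq_mul_of_central {M : Subgroup G} (hMc : M ≤ Subgroup.center G)
    (hcomm : ∀ x y : G, ⁅x, y⁆ ∈ M) (x y : G) : (x * y) ^ 2 = x ^ 2 * y ^ 2 * ⁅y, x⁆ := by
  rw [mul_pow_of_commutatorElement (hMc (hcomm y x)) 2]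
  simp

theorem sq_mul_of_mem {M : Subgroup G} (hMc : M ≤ Subgroup.center G)
    (hM2 : ∀ m ∈ M, m ^ 2 = 1) (x : G) {m : G} (hm : m ∈ M) : (x * m) ^ 2 = x ^ 2 := by
  rw [(show Commute x m from Subgroup.mem_center_iff.mp (hMc hm) x).mul_pow, hM2 m hm, mul_one]

theorem sq_out_eq {M : Subgroup G} (hMc : M ≤ Subgroup.center G) (hM2 : ∀ m ∈ M, m ^ 2 = 1)
    (x : G) : (QuotientGroup.mk x : G ⧸ M).out ^ 2 = x ^ 2 := by
  obtain ⟨c, hc⟩ := QuotientGroup.mk_out_eq_mul M x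
  rw [hc, sq_mul_of_mem hMc hM2 x c.2]

/-- The squaring map on the quotient is quadratic. -/
theorem isQuad_sq {M : Subgroup G} [M.Normal] (hMc : M ≤ Subgroup.center G)
    (hM2 : ∀ m ∈ M, m ^ 2 = 1) (hsq : ∀ x : G, x ^ 2 ∈ M) (hcomm : ∀ x y : G, ⁅x, y⁆ ∈ M)
    {W : Type*} [CommGroup W] (π : M →* W) :
    IsQuad (fun v : G ⧸ M => π ⟨v.out ^ 2, hsq _⟩) := by
  have hw : ∀ m : M, π m * π m = 1 := fun m => by
    rw [← map_mul, show m * m = 1 from Subtype.ext (by simpa [sq] using hM2 m m.2), map_one]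
  have hmk : ∀ x : G, π ⟨(QuotientGroup.mk x : G ⧸ M).out ^ 2, hsq _⟩ =
      π ⟨x ^ 2, hsq x⟩ := fun x => congrArg π (Subtype.ext (sq_out_eq hMc hM2 x))
  have hβ : ∀ x y : G, π ⟨(x * y) ^ 2, hsq _⟩ * π ⟨x ^ 2, hsq x⟩ * π ⟨y ^ 2, hsq y⟩ =
      π ⟨⁅y, x⁆, hcomm y x⟩ := fun x y => by
    have h : (⟨(x * y) ^ 2, hsq _⟩ : M) = ⟨x ^ 2, hsq x⟩ * ⟨y ^ 2, hsq y⟩ * ⟨⁅y, x⁆, hcomm y x⟩ :=
      Subtype.ext (sq_mul_of_central hMc hcomm x y)
    rw [h, map_mul, map_mul]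
    calc π ⟨x ^ 2, hsq x⟩ * π ⟨y ^ 2, hsq y⟩ * π ⟨⁅y, x⁆, hcomm y x⟩ * π ⟨x ^ 2, hsq x⟩ *
          π ⟨y ^ 2, hsq y⟩
        = π ⟨⁅y, x⁆, hcomm y x⟩ * ((π ⟨x ^ 2, hsq x⟩ * π ⟨x ^ 2, hsq x⟩) *
          (π ⟨y ^ 2, hsq y⟩ * π ⟨y ^ 2, hsq y⟩)) := by ac_rfl
      _ = _ := by simp [hw]
  refine ⟨?_, fun v => hw _, fun u v w => ?_⟩
  · exact ((hmk 1).trans (congrArg π (Subtype.ext (one_pow 2)))).trans (map_one π)
  · induction u using QuotientGroup.induction_on with | _ x =>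
    induction v using QuotientGroup.induction_on with | _ y =>
    induction w using QuotientGroup.induction_on with | _ z =>
    simp only [← QuotientGroup.mk_mul, hmk]
    rw [hβ, hβ, hβ, ← map_mul]
    exact congrArg π (Subtype.ext (commutatorElement_mul_right (hMc (hcomm z y))))

/-- A subgroup of `G/M` of order greater than `|W|²` contains a non-trivial coset whose square
dies in `W`. -/
theorem exists_sq_zero [Finite G] (hG : IsPGroup 2 G) {M : Subgroup G} [M.Normal]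
    (hMc : M ≤ Subgroup.center G) (hM2 : ∀ m ∈ M, m ^ 2 = 1) (hsq : ∀ x : G, x ^ 2 ∈ M)
    (hcomm : ∀ x y : G, ⁅x, y⁆ ∈ M) (U : Subgroup (G ⧸ M))
    {W : Type*} [CommGroup W] [Finite W] (hexp : ∀ w : W, w ^ 2 = 1) (π : M →* W)
    (hlt : Nat.card W ^ 2 < Nat.card U) :
    ∃ x : G, (QuotientGroup.mk x : G ⧸ M) ∈ U ∧ x ∉ M ∧ π ⟨x ^ 2, hsq x⟩ = 1 := by
  obtain ⟨u, hu, hu0⟩ := exists_quad_zero ((hG.to_quotient M).to_subgroup U) hexp
    ((isQuad_sq hMc hM2 hsq hcomm π).comp_hom U.subtype) hlt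
  refine ⟨(u : G ⧸ M).out, ?_, fun h => hu (Subtype.ext ?_), hu0⟩
  · rw [QuotientGroup.out_eq']; exact u.2
  · rw [← QuotientGroup.out_eq' (u : G ⧸ M)]
    exact (QuotientGroup.eq_one_iff _).mpr h

end Cfsg.Agent.PGroup
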