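import Cfsg.Agent.LocEven.DStar
import Cfsg.Agent.Stability.Action
import Cfsg.Agent.S3060
import Mathlib.GroupTheory.Nilpotent

/-!
Primitive pairs of characteristic `p` with both members `p`-stable do not exist.
-/

set_option autoImplicit false
set_option linter.style.haveILetI false

namespace Cfsg.Agent.PGroup.StablePair

open Subgroup
open scoped commutatorElement

variable {G : Type*} [Group G] {p : ℕ}

/-- An element of a normal `p`-subgroup of an intermediate subgroup `J ≥ C` that maps into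
`O_p(G / C)` lies in `O_p(G)`. -/
theorem mem_pCore_of_stable [Finite G] [Fact p.Prime] {C J Q : Subgroup G} [C.Normal] (hCJ : C ≤ J)
    (hQ : IsPGroup p Q) (hJQ : J ≤ normalizer (Q : Set G)) {x : G} (hxQ : x ∈ Q)
    (hL : (x : G ⧸ C) ∈ Cfsg.pCore p (G ⧸ C)) : x ∈ Cfsg.pCore p G := by
  have hcore : ((C ⊓ Q : Subgroup G)) ≤ Cfsg.pCore p G := by
    have hn : ((C ⊓ Q).subgroupOf C).Normal := by
      refine ⟨fun n hn c => ?_⟩
      rw [mem_subgroupOf, Subgroup.mem_inf] at hn ⊢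
      refine ⟨(c * n * c⁻¹).2, ?_⟩
      simpa using (mem_normalizer_iff.1 (hJQ (hCJ c.2)) _).1 hn.2
    have hp : IsPGroup p ((C ⊓ Q).subgroupOf C) :=
      (hQ.to_le inf_le_right).of_equiv (subgroupOfEquivOfLe (inf_le_left : C ⊓ Q ≤ C)).symm
    have h := map_mono (f := C.subtype) (PSolv.le_pCore hn hp)
    rw [map_subgroupOf_eq_of_le (inf_le_left : C ⊓ Q ≤ C)] at h
    exact h.trans PSolv.map_pCore_subtype_le
  have hxc : ∀ c ∈ C, ⁅x, c⁆ ∈ Cfsg.pCore p G := by
    intro c hc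
    refine hcore (Subgroup.mem_inf.mpr ⟨?_, ?_⟩)
    · rw [commutatorElement_def, show x * c * x⁻¹ * c⁻¹ = (x * c * x⁻¹) * c⁻¹ from rfl]
      exact mul_mem ((inferInstance : C.Normal).conj_mem c hc x) (inv_mem hc)
    · rw [commutatorElement_def, show x * c * x⁻¹ * c⁻¹ = x * (c * x⁻¹ * c⁻¹) by group]
      exact mul_mem hxQ ((mem_normalizer_iff.1 (hJQ (hCJ hc)) _).1 (inv_mem hxQ))
  set O := Cfsg.pCore p G
  set π := QuotientGroup.mk' O
  set Cb := C.map π with hCb
  haveI hCbn : Cb.Normal := Normal.map inferInstance π (QuotientGroup.mk'_surjective O)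
  set L := (Cfsg.pCore p (G ⧸ C)).comap (QuotientGroup.mk' C) with hLdef
  haveI : (L.map π).Normal :=
    Normal.map (Normal.comap inferInstance _) π (QuotientGroup.mk'_surjective O)
  set P := L.map π ⊓ centralizer (Cb : Set (G ⧸ O)) with hP
  haveI hPn : P.Normal := inferInstance
  have hxP : π x ∈ P := by
    refine Subgroup.mem_inf.mpr ⟨⟨x, hL, rfl⟩, mem_centralizer_iff.2 ?_⟩
    rintro - ⟨c, hc, rfl⟩
    refine (commutatorElement_eq_one_iff_mul_comm.1 ?_).symm
    rw [← map_commutatorElement]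
    exact (QuotientGroup.eq_one_iff _).2 (hxc c hc)
  -- `P` is nilpotent
  let f : P →* (G ⧸ O) ⧸ Cb := (QuotientGroup.mk' Cb).comp P.subtype
  have hker : f.ker ≤ center P := by
    intro z hz
    have hzC : (z : G ⧸ O) ∈ Cb := (QuotientGroup.eq_one_iff _).1 hz
    refine mem_center_iff.2 fun w => Subtype.ext ?_
    exact (mem_centralizer_iff.1 w.2.2 _ hzC).symm
  have hrange : IsPGroup p f.range := by
    rintro ⟨-, z, rfl⟩
    obtain ⟨l, hl, hlz⟩ := z.2.1
    obtain ⟨k, hk⟩ := PSolv.isPGroup_pCore p (G ⧸ C) ⟨_, hl⟩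
    have hk' : l ^ p ^ k ∈ C := (QuotientGroup.eq_one_iff _).1 (congrArg Subtype.val hk)
    refine ⟨k, Subtype.ext ?_⟩
    show (QuotientGroup.mk' Cb (z : G ⧸ O)) ^ p ^ k = 1
    rw [← map_pow, ← hlz, ← map_pow]
    exact (QuotientGroup.eq_one_iff _).2 ⟨_, hk', rfl⟩
  haveI : Group.IsNilpotent f.range := hrange.isNilpotent
  haveI hnil : Group.IsNilpotent P :=
    _root_.isNilpotent_of_ker_le_center f.rangeRestrict (by rw [MonoidHom.ker_rangeRestrict]; exact hker)
  obtain ⟨k, hk⟩ := hQ ⟨x, hxQ⟩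
  have hz : IsPGroup p (zpowers (⟨π x, hxP⟩ : P)) := by
    rintro ⟨y, hy⟩
    obtain ⟨n, rfl⟩ := mem_zpowers_iff.1 hy
    refine ⟨k, Subtype.ext (Subtype.ext ?_)⟩
    show ((π x) ^ n) ^ p ^ k = 1
    rw [← zpow_natCast, ← zpow_mul, mul_comm, zpow_mul, zpow_natCast, ← map_pow,
      show x ^ p ^ k = 1 from congrArg Subtype.val hk, map_one, one_zpow]
  obtain ⟨S, hS⟩ := hz.exists_le_sylow
  haveI : (S : Subgroup P).Normal := inferInstance
  haveI hSchar : (S : Subgroup P).Characteristic := Sylow.characteristic_of_normal S inferInstance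
  have h1 : (S : Subgroup P).map P.subtype ≤ Cfsg.pCore p (G ⧸ O) :=
    PSolv.le_pCore (PSolv.map_subtype_normal hSchar) (S.2.map _)
  have h2 := h1 ⟨⟨π x, hxP⟩, hS (mem_zpowers _), rfl⟩
  rw [show Cfsg.pCore p (G ⧸ O) = ⊥ from PSolv.pCore_quotient_eq_bot p G, Subgroup.mem_bot] at h2
  exact (QuotientGroup.eq_one_iff _).1 h2

/-- `A` is a member of the family defining `D*` of the subgroup `P`. -/
def Fam (P A : Subgroup G) : Prop :=
  A ≤ P ∧ IsMulCommutative A ∧ ∀ x ∈ P,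
    ⁅⁅A ⊔ zpowers x, A ⊔ zpowers x⁆, A ⊔ zpowers x⁆ = ⊥ → ∀ a ∈ A, a * x = x * a

theorem Fam.mono {P P' A : Subgroup G} (h : Fam P A) (hP : P' ≤ P) (hA : A ≤ P') : Fam P' A :=
  ⟨hA, h.2.1, fun x hx => h.2.2 x (hP hx)⟩

theorem Fam.map {H : Type*} [Group H] {f : G →* H} (hf : Function.Injective f) {P A : Subgroup G}
    (h : Fam P A) : Fam (P.map f) (A.map f) := by
  refine ⟨map_mono h.1, Modules.comm_map _ h.2.1, ?_⟩
  rintro - ⟨x, hx, rfl⟩ hcl - ⟨a, ha, rfl⟩
  rw [← map_mul, ← map_mul]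
  refine congrArg f (h.2.2 x hx ?_ a ha)
  refine (map_eq_bot_iff_of_injective _ hf).1 ?_
  rw [map_commutator, map_commutator, Subgroup.map_sup, MonoidHom.map_zpowers]
  exact hcl

theorem fam_dStarOf [Finite G] [Fact p.Prime] {P : Subgroup G} (hP : IsPGroup p P) :
    Fam P (Cfsg.dStarOf P) := by
  haveI : Group.IsNilpotent P := hP.isNilpotent
  refine ⟨map_subtype_le _, Modules.comm_map _ LocEven.DStar.dStar_mem.1, ?_⟩
  rintro x hx hcl - ⟨a, ha, rfl⟩
  refine congrArg P.subtype (LocEven.DStar.dStar_mem.2 ⟨x, hx⟩ ?_ a ha)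
  refine (map_eq_bot_iff_of_injective _ P.subtype_injective).1 ?_
  rw [map_commutator, map_commutator, Subgroup.map_sup, MonoidHom.map_zpowers]
  exact hcl

theorem Fam.le_dStarOf {P A : Subgroup G} (h : Fam P A) : A ≤ Cfsg.dStarOf P := by
  have hmem : A.subgroupOf P ∈ Cfsg.dStarFamily P := by
    refine ⟨Modules.comm_comap _ P.subtype_injective h.2.1, fun x hx a ha => Subtype.ext ?_⟩
    refine h.2.2 x x.2 ?_ a ha
    have := congrArg (Subgroup.map P.subtype) hx
    rw [Subgroup.map_bot, map_commutator, map_commutator, Subgroup.map_sup, MonoidHom.map_zpowers,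
      map_subgroupOf_eq_of_le h.1] at this
    exact this
  calc A = (A.subgroupOf P).map P.subtype := (map_subgroupOf_eq_of_le h.1).symm
    _ ≤ Cfsg.dStarOf P := map_mono (le_sSup hmem)

variable (p) in
/-- `O_p(M)` as a subgroup of the whole group. -/
abbrev core (M : Subgroup G) : Subgroup G := (Cfsg.pCore p M).map M.subtype

theorem isPGroup_core (M : Subgroup G) : IsPGroup p (core p M) :=
  (PSolv.isPGroup_pCore p M).map _

theorem le_normalizer_core (M : Subgroup G) : M ≤ normalizer (core p M : Set G) := by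
  intro g hg
  rw [mem_normalizer_iff]
  intro y
  constructor
  · rintro ⟨z, hz, rfl⟩
    exact ⟨⟨g, hg⟩ * z * ⟨g, hg⟩⁻¹, (inferInstance : (Cfsg.pCore p M).Normal).conj_mem z hz _, rfl⟩
  · rintro ⟨z, hz, hzy⟩
    refine ⟨⟨g, hg⟩⁻¹ * z * ⟨g, hg⟩⁻¹⁻¹, (inferInstance : (Cfsg.pCore p M).Normal).conj_mem z hz _, ?_⟩
    have hzy' : (z : G) = g * y * g⁻¹ := hzy
    show g⁻¹ * (z : G) * g⁻¹⁻¹ = y
    rw [hzy']
    group

/-- The hypotheses on a member of the pair. -/
def Good (p : ℕ) (M : Subgroup G) : Prop :=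
  centralizer (Cfsg.pCore p M : Set M) ≤ Cfsg.pCore p M ∧
    ∀ (P : Subgroup M) [P.Normal], IsPGroup p P → Cfsg.IsPStableOn p P

/-- An abelian subgroup of a good `M` normalized by `O_p(M)` lies in `O_p(M)`. -/
theorem le_core [Finite G] [Fact p.Prime] {M A : Subgroup G} (hM : Good p M) (hAM : A ≤ M)
    (hA : IsMulCommutative A) (hOA : core p M ≤ normalizer (A : Set G)) : A ≤ core p M := by
  intro a ha
  set Q := Cfsg.pCore p M
  set x : M := ⟨a, hAM ha⟩
  have hquad : ⁅⁅Q, zpowers x⁆, zpowers x⁆ = ⊥ := by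
    refine (map_eq_bot_iff_of_injective _ M.subtype_injective).1 ?_
    rw [map_commutator, map_commutator, MonoidHom.map_zpowers]
    have h1 : ⁅core p M, zpowers a⁆ ≤ A := by
      refine commutator_le.2 fun q hq y hy => ?_
      have hyA : y ∈ A := zpowers_le.2 ha hy
      rw [show ⁅q, y⁆ = q * y * q⁻¹ * y⁻¹ from rfl]
      exact mul_mem ((mem_normalizer_iff.1 (hOA hq) y).1 hyA) (inv_mem hyA)
    exact commutator_eq_bot_iff_le_centralizer.2
      (h1.trans (Modules.comm_le_centralizer hA |>.trans (centralizer_le (zpowers_le.2 ha))))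
  have h2 := hM.2 Q (PSolv.isPGroup_pCore p M) x hquad
  have hp' : IsPGroup p ((Cfsg.pCore p (M ⧸ centralizer (Q : Set M))).comap
      (QuotientGroup.mk' (centralizer (Q : Set M)))) :=
    (PSolv.isPGroup_pCore p _).comap_of_ker_isPGroup _
      (by rw [QuotientGroup.ker_mk']; exact (PSolv.isPGroup_pCore p M).to_le hM.1)
  exact ⟨x, PSolv.le_pCore inferInstance hp' h2, rfl⟩

/-- The `D*` of a normal Sylow-type subgroup: a non-trivial abelian normal member of the family of a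
Sylow subgroup. -/
theorem exists_dStar [Finite G] [Fact p.Prime] (hp : p ≠ 2) {M : Subgroup G} (hM : Good p M)
    (hne : core p M ≠ ⊥) {R : Subgroup G} (hR : IsPGroup p R) (hRM : R ≤ M) :
    ∃ D S : Subgroup G, D ≠ ⊥ ∧ R ≤ S ∧ Fam S D ∧
      M ≤ normalizer (D : Set G) ∧ D ≤ core p M := by
  obtain ⟨S, hS⟩ := (hR.of_equiv (subgroupOfEquivOfLe hRM).symm).exists_le_sylow
  haveI : Group.IsNilpotent (S : Subgroup M) := S.2.isNilpotent
  haveI hDn : (Cfsg.dStarOf (S : Subgroup M)).Normal := Cfsg.Agent.S3060.result hp hM.1 hM.2 S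
  have hfam := (fam_dStarOf (P := (S : Subgroup M)) S.2).map (f := M.subtype) M.subtype_injective
  refine ⟨_, (S : Subgroup M).map M.subtype, ?_, fun r hr => ⟨⟨r, hRM hr⟩, hS hr, rfl⟩, hfam, ?_, ?_⟩
  · intro h
    rw [map_eq_bot_iff_of_injective _ M.subtype_injective, Cfsg.dStarOf,
      map_eq_bot_iff_of_injective _ (S : Subgroup M).subtype_injective] at h
    have hS : Nontrivial (S : Subgroup M) := by
      rw [nontrivial_iff_ne_bot]
      intro hb
      refine hne ?_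
      rw [core, show Cfsg.pCore p M = ⊥ from le_bot_iff.1 (hb ▸ PSolv.pCore_le_sylow S),
        Subgroup.map_bot]
    have hc : Nontrivial (center (S : Subgroup M)) := S.2.center_nontrivial
    rw [nontrivial_iff_ne_bot] at hc
    exact hc (le_bot_iff.1 (h ▸ le_sSup (LocEven.DStar.center_mem_fam _)))
  · intro g hg
    rw [mem_normalizer_iff]
    intro y
    constructor
    · rintro ⟨z, hz, rfl⟩
      exact ⟨⟨g, hg⟩ * z * ⟨g, hg⟩⁻¹, hDn.conj_mem z hz _, rfl⟩
    · rintro ⟨z, hz, hzy⟩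
      refine ⟨⟨g, hg⟩⁻¹ * z * ⟨g, hg⟩⁻¹⁻¹, hDn.conj_mem z hz _, ?_⟩
      have hzy' : (z : G) = g * y * g⁻¹ := hzy
      show g⁻¹ * (z : G) * g⁻¹⁻¹ = y
      rw [hzy']
      group
  · exact map_mono (PSolv.le_pCore hDn (S.2.to_le (map_subtype_le _)))

/-- `D*(O_p(N))` is in the family of `O_p(M)`. -/
theorem dStar_core_fam [Finite G] [Fact p.Prime] {M N : Subgroup G} (hM : Good p M) (hN : Good p N)
    (hMN : core p M ≤ N) (hNM : core p N ≤ M)
    (hcen : ∀ g ∈ N, g ∈ centralizer (Cfsg.dStarOf (core p N) : Set G) → g ∈ M) :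
    Fam (core p M) (Cfsg.dStarOf (core p N)) := by
  set E := Cfsg.dStarOf (core p N)
  have hEfam : Fam (core p N) E := fam_dStarOf (isPGroup_core N)
  have hEN : E ≤ N := hEfam.1.trans (map_subtype_le _)
  have hNE : N ≤ normalizer (E : Set G) :=
    (le_normalizer_core N).trans (LocEven.DStar.normalizer_le_dStarOf _)
  have hEM : E ≤ core p M :=
    le_core hM (hEfam.1.trans hNM) hEfam.2.1 (hMN.trans hNE)
  refine ⟨hEM, hEfam.2.1, fun x hx hcl a ha => ?_⟩
  set xn : N := ⟨x, hMN hx⟩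
  set V := E.subgroupOf N
  haveI hVn : V.Normal := by
    refine ⟨fun v hv g => ?_⟩
    show ((g * v * g⁻¹ : N) : G) ∈ E
    exact (mem_normalizer_iff.1 (hNE g.2) _).1 hv
  have hVp : IsPGroup p V :=
    ((isPGroup_core N).to_le hEfam.1).of_equiv (subgroupOfEquivOfLe hEN).symm
  have hquad : ⁅⁅V, zpowers xn⁆, zpowers xn⁆ = ⊥ := by
    refine (map_eq_bot_iff_of_injective _ N.subtype_injective).1 ?_
    rw [map_commutator, map_commutator, MonoidHom.map_zpowers, map_subgroupOf_eq_of_le hEN]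
    exact le_bot_iff.1 (hcl ▸ commutator_mono (commutator_mono le_sup_left le_sup_right) le_sup_right)
  have h := hN.2 V hVp xn hquad
  have hC : centralizer (V : Set N) ≤ (M ⊓ N).subgroupOf N := by
    intro g hg
    refine Subgroup.mem_inf.mpr ⟨hcen g g.2 (mem_centralizer_iff.2 fun e he => ?_), g.2⟩
    exact congrArg Subtype.val (mem_centralizer_iff.1 hg ⟨e, hEN he⟩ he)
  have hxN : xn ∈ Cfsg.pCore p N := by
    refine mem_pCore_of_stable hC (Q := (core p M).subgroupOf N)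
      ((isPGroup_core M).of_equiv (subgroupOfEquivOfLe hMN).symm) ?_ hx h
    intro g hg
    rw [mem_normalizer_iff]
    intro y
    exact mem_normalizer_iff.1 (le_normalizer_core M (Subgroup.mem_inf.mp hg).1) y
  exact hEfam.2.2 x ⟨xn, hxN, rfl⟩ hcl a ha

/-- A primitive pair of characteristic `p` cannot consist of two `p`-stable groups. -/
theorem false_of_good [Finite G] [Fact p.Prime] (hp : p ≠ 2) {M N : Subgroup G} (hne : M ≠ N)
    (hP : ∀ A : Subgroup G, A ≠ ⊥ → A ≤ M ⊓ N →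
      (M ≤ normalizer (A : Set G) → N ⊓ normalizer (A : Set G) = M ⊓ N) ∧
      (N ≤ normalizer (A : Set G) → M ⊓ normalizer (A : Set G) = M ⊓ N))
    (hM : Good p M) (hN : Good p N) (hO : core p M ⊔ core p N ≤ M ⊓ N) : False := by
  have hbot : ∀ K : Subgroup G, Good p K → core p K = ⊥ → K = ⊥ := by
    intro K hK hb
    rw [map_eq_bot_iff_of_injective _ K.subtype_injective] at hb
    have h := hK.1
    rw [hb] at h
    refine (Subgroup.eq_bot_iff_forall _).2 fun k hk => ?_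
    have h1 : (⟨k, hk⟩ : K) ∈ centralizer ((⊥ : Subgroup K) : Set K) :=
      mem_centralizer_iff.2 fun y hy => by
        rw [Subgroup.coe_bot, Set.mem_singleton_iff] at hy
        rw [hy, one_mul, mul_one]
    exact congrArg Subtype.val (Subgroup.mem_bot.1 (h h1))
  have hM1 : core p M ≤ N := le_sup_left.trans (hO.trans inf_le_right)
  have hN1 : core p N ≤ M := le_sup_right.trans (hO.trans inf_le_left)
  by_cases hMb : core p M = ⊥
  · have h0 := hbot M hM hMb
    refine hne (h0.trans (hbot N hN ?_).symm)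
    exact le_bot_iff.1 (hN1.trans h0.le)
  by_cases hNb : core p N = ⊥
  · have h0 := hbot N hN hNb
    exact hMb (le_bot_iff.1 (hM1.trans h0.le))
  obtain ⟨D₁, S₁, hD₁, hS₁, hf₁, hn₁, hc₁⟩ := exists_dStar hp hM hMb (isPGroup_core N) hN1
  obtain ⟨D₂, S₂, hD₂, hS₂, hf₂, hn₂, hc₂⟩ := exists_dStar hp hN hNb (isPGroup_core M) hM1
  have hJ₁ : D₁ ≤ M ⊓ N := le_inf (hc₁.trans (map_subtype_le _)) (hc₁.trans hM1)
  have hJ₂ : D₂ ≤ M ⊓ N := le_inf (hc₂.trans hN1) (hc₂.trans (map_subtype_le _))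
  have h1N : D₁ ≤ core p N := le_core hN (hc₁.trans hM1) hf₁.2.1 (hN1.trans hn₁)
  have h2M : D₂ ≤ core p M := le_core hM (hc₂.trans hN1) hf₂.2.1 (hM1.trans hn₂)
  have hE₂ : D₁ ≤ Cfsg.dStarOf (core p N) := (hf₁.mono hS₁ h1N).le_dStarOf
  have hE₁ : D₂ ≤ Cfsg.dStarOf (core p M) := (hf₂.mono hS₂ h2M).le_dStarOf
  have hcN : ∀ g ∈ N, g ∈ centralizer (Cfsg.dStarOf (core p N) : Set G) → g ∈ M := by
    intro g hgN hg
    have h : g ∈ N ⊓ normalizer (D₁ : Set G) :=
      Subgroup.mem_inf.mpr ⟨hgN, centralizer_le_normalizer _ (centralizer_le hE₂ hg)⟩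
    rw [(hP D₁ hD₁ hJ₁).1 hn₁] at h
    exact (Subgroup.mem_inf.mp h).1
  have hcM : ∀ g ∈ M, g ∈ centralizer (Cfsg.dStarOf (core p M) : Set G) → g ∈ N := by
    intro g hgM hg
    have h : g ∈ M ⊓ normalizer (D₂ : Set G) :=
      Subgroup.mem_inf.mpr ⟨hgM, centralizer_le_normalizer _ (centralizer_le hE₁ hg)⟩
    rw [(hP D₂ hD₂ hJ₂).2 hn₂] at h
    exact (Subgroup.mem_inf.mp h).2
  have hEeq : Cfsg.dStarOf (core p M) = Cfsg.dStarOf (core p N) :=
    le_antisymm (dStar_core_fam hN hM hN1 hM1 hcM).le_dStarOf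
      (dStar_core_fam hM hN hM1 hN1 hcN).le_dStarOf
  set E := Cfsg.dStarOf (core p N) with hE
  have hEM : M ≤ normalizer (E : Set G) := by
    rw [← hEeq]
    exact (le_normalizer_core M).trans (LocEven.DStar.normalizer_le_dStarOf _)
  have hEN : N ≤ normalizer (E : Set G) :=
    (le_normalizer_core N).trans (LocEven.DStar.normalizer_le_dStarOf _)
  have hEJ : E ≤ M ⊓ N :=
    le_inf ((map_subtype_le _).trans hN1) ((map_subtype_le _).trans (map_subtype_le _))
  have hEne : E ≠ ⊥ := fun h => hD₁ (le_bot_iff.1 (h ▸ hE₂))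
  have h1 := (hP E hEne hEJ).1 hEM
  have h2 := (hP E hEne hEJ).2 hEN
  rw [inf_eq_left.2 hEN] at h1
  rw [inf_eq_left.2 hEM] at h2
  exact hne (h2.trans h1.symm)

end Cfsg.Agent.PGroup.StablePair
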